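import Mathlib

/-!
# Coset enumeration certificates

A certificate is a static record of a run of coset enumeration: labelled cosets, facts
"letter `x` sends label `c` to label `d`", and merges of labels.  Every fact is justified from
earlier facts by a relator.  The check is a Boolean function evaluated by the kernel; this file
proves it sound for any family of maps `act` for which the relators hold.
-/

set_option autoImplicit false

namespace Cfsg.Agent.H07.Coset

noncomputable section

/-- Binary trees, used as read-only arrays evaluated by the kernel. -/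
inductive BT (α : Type) where
  | leaf (a : α)
  | node (l r : BT α)

/-- Read a leaf: the low bits of the index give the path. -/
def BT.get {α : Type} (t : BT α) : ℕ → α :=
  @BT.rec α (fun _ => ℕ → α) (fun a _ => a)
    (fun _ _ ra rb i => bif Nat.beq (Nat.land i 1) 0 then ra (Nat.shiftRight i 1) else rb (Nat.shiftRight i 1)) t

/-- All leaves satisfy a Boolean predicate. -/
def BT.all {α : Type} (p : α → Bool) (t : BT α) : Bool :=
  @BT.rec α (fun _ => Bool) (fun a => p a) (fun _ _ ra rb => ra && rb) t

theorem BT.get_of_all {α : Type} (p : α → Bool) (t : BT α) (h : BT.all p t = true) (i : ℕ) :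
    p (t.get i) = true := by
  induction t generalizing i with
  | leaf a => exact h
  | node l r ihl ihr =>
    have h' : BT.all p l = true ∧ BT.all p r = true := by
      have : (BT.all p l && BT.all p r) = true := h
      simpa using this
    show p (bif Nat.beq (Nat.land i 1) 0 then l.get (Nat.shiftRight i 1) else r.get (Nat.shiftRight i 1)) = true
    cases Nat.beq (Nat.land i 1) 0
    · exact ihr h'.2 _
    · exact ihl h'.1 _

/-- Bounded universal check with binary splitting, so that the recursion stays shallow. -/
def allR (f : ℕ → Bool) (d : ℕ) : ℕ → Bool :=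
  @Nat.rec (fun _ => ℕ → Bool) (fun lo => f lo)
    (fun d ih lo => ih lo && ih (Nat.add lo (Nat.pow 2 d))) d

theorem allR_zero (f : ℕ → Bool) (lo : ℕ) : allR f 0 lo = f lo := rfl

theorem allR_succ (f : ℕ → Bool) (d lo : ℕ) :
    allR f (d + 1) lo = (allR f d lo && allR f d (lo + 2 ^ d)) := rfl

theorem allR_spec (f : ℕ → Bool) (d lo : ℕ) (h : allR f d lo = true) :
    ∀ i, lo ≤ i → i < lo + 2 ^ d → f i = true := by
  induction d generalizing lo with
  | zero =>
    intro i h1 h2
    have : i = lo := by omega
    rw [this]
    exact h
  | succ d ih =>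
    rw [allR_succ] at h
    simp only [Bool.and_eq_true] at h
    intro i h1 h2
    by_cases hi : i < lo + 2 ^ d
    · exact ih lo h.1 i h1 hi
    · refine ih (lo + 2 ^ d) h.2 i (by omega) ?_
      rw [pow_succ] at h2
      omega

theorem allR_of_parts (f : ℕ → Bool) (d lo : ℕ) (h1 : allR f d lo = true)
    (h2 : allR f d (lo + 2 ^ d) = true) : allR f (d + 1) lo = true := by
  rw [allR_succ, h1, h2]
  rfl

theorem blt_lt {a b : ℕ} (h : Nat.blt a b = true) : a < b := Nat.le_of_ble_eq_true h

/-! ### Fields of the codes -/

/-- target label of a cell or merge code -/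
def tgtOf (c : ℕ) : ℕ := Nat.land c 16777215
/-- whether the target label ever merges -/
def deadOf (c : ℕ) : ℕ := Nat.land (Nat.shiftRight c 24) 1
/-- time of a cell or merge code -/
def timeOf (c : ℕ) : ℕ := Nat.shiftRight c 25

/-- kind of a step code -/
def kOf (s : ℕ) : ℕ := Nat.land s 7
/-- letter of a step code -/
def xOf (s : ℕ) : ℕ := Nat.land (Nat.shiftRight s 3) 255
/-- label of a step code -/
def cOf (s : ℕ) : ℕ := Nat.land (Nat.shiftRight s 11) 16777215
/-- auxiliary field of a step code -/
def aOf (s : ℕ) : ℕ := Nat.shiftRight s 35

/-- letter of a definition code -/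
def gOf (s : ℕ) : ℕ := Nat.land s 255
/-- parent of a definition code -/
def pOf (s : ℕ) : ℕ := Nat.shiftRight s 8

section Check

variable (cell : ℕ → ℕ → ℕ) (eps : ℕ → ℕ) (stp : ℕ → ℕ) (defs : ℕ → ℕ) (word : ℕ → List ℕ)
  (ncol : ℕ) (hlet : List ℕ)

/-- Follow merges earlier than time `t`, starting from a code. -/
def repC (t : ℕ) (f : ℕ) : ℕ → ℕ :=
  @Nat.rec (fun _ => ℕ → ℕ) (fun c => tgtOf c)
    (fun _ ih c => bif Nat.beq (deadOf c) 0 then tgtOf c else
      bif Nat.blt (timeOf (eps (tgtOf c))) t then ih (eps (tgtOf c)) else tgtOf c) f

/-- Follow merges earlier than time `t`, starting from a label. -/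
def repL (t : ℕ) (l : ℕ) : ℕ :=
  bif Nat.blt (timeOf (eps l)) t then repC eps t 64 (eps l) else l

/-- Walk a word from a label, reading facts earlier than time `t`; the end must be `tg`. -/
def chk (t : ℕ) (w : List ℕ) : ℕ → ℕ → Bool :=
  @List.rec ℕ (fun _ => ℕ → ℕ → Bool) (fun g tg => Nat.beq g tg)
    (fun y _ ih g tg =>
      bif Nat.blt y ncol then
        bif Nat.blt (timeOf (cell g y)) t then ih (repC eps t 64 (cell g y)) tg else false
      else
        bif Nat.beq g 0 then ih 0 tg else false) w

/-- The check of step number `t`. -/
def stepOK (t : ℕ) : Bool :=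
  let s := stp t
  let k := kOf s
  let x := xOf s
  let c := cOf s
  let a := aOf s
  bif Nat.beq k 2 then
    @List.rec ℕ (fun _ => Bool) false
      (fun y w _ => bif Nat.beq y x then chk cell eps ncol t w (tgtOf (cell c x)) c else false) (word a)
  else bif Nat.beq k 0 then
    (Nat.blt c (tgtOf (cell c x)) && Nat.beq (pOf (defs (tgtOf (cell c x)))) c &&
      Nat.beq (gOf (defs (tgtOf (cell c x)))) x)
  else bif Nat.beq k 1 then
    (Nat.beq c 0 && Nat.beq (tgtOf (cell c x)) 0 && hlet.contains x)
  else bif Nat.beq k 3 then
    (Nat.blt (timeOf (cell a x)) t && Nat.beq (repL eps t a) (repL eps t c) &&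
      Nat.beq (repC eps t 64 (cell a x)) (repL eps t (tgtOf (cell c x))))
  else bif Nat.beq k 4 then
    (bif Nat.beq x 0 then chk cell eps ncol t (word a) c (tgtOf (eps c))
     else chk cell eps ncol t (word a) (tgtOf (eps c)) c)
  else bif Nat.beq k 5 then
    (Nat.blt (timeOf (cell a x)) t && Nat.blt (timeOf (cell (repL eps t a) x)) t &&
      ((Nat.beq (repC eps t 64 (cell a x)) c &&
          Nat.beq (repC eps t 64 (cell (repL eps t a) x)) (tgtOf (eps c))) ||
       (Nat.beq (repC eps t 64 (cell a x)) (tgtOf (eps c)) &&
          Nat.beq (repC eps t 64 (cell (repL eps t a) x)) c)))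
  else false

/-- consistency of cell times with the steps -/
def consCell (M g y : ℕ) : Bool :=
  bif Nat.blt (timeOf (cell g y)) M then
    (Nat.beq (cOf (stp (timeOf (cell g y)))) g && Nat.beq (xOf (stp (timeOf (cell g y)))) y &&
      Nat.blt (kOf (stp (timeOf (cell g y)))) 4)
  else true

/-- consistency of merge times with the steps -/
def consEps (M g : ℕ) : Bool :=
  bif Nat.blt (timeOf (eps g)) M then
    (Nat.beq (cOf (stp (timeOf (eps g)))) g && !(Nat.blt (kOf (stp (timeOf (eps g)))) 4))
  else true

end Check

/-! ### Soundness -/

section Sound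

variable {X : Type*} (act : ℕ → X → X) (q0 : X)
  (cell : ℕ → ℕ → ℕ) (eps : ℕ → ℕ) (stp : ℕ → ℕ) (defs : ℕ → ℕ) (word : ℕ → List ℕ)
  (ncol : ℕ) (hlet : List ℕ)

/-- The semantic value of a label. -/
def Q (d : ℕ) : X :=
  if _h : d = 0 then q0 else
    if hlt : pOf (defs d) < d then act (gOf (defs d)) (Q (pOf (defs d))) else q0
termination_by d
decreasing_by exact hlt

theorem Q_zero : Q act q0 defs 0 = q0 := by
  rw [Q]
  simp

theorem Q_step {d : ℕ} (h0 : d ≠ 0) (hlt : pOf (defs d) < d) :
    Q act q0 defs d = act (gOf (defs d)) (Q act q0 defs (pOf (defs d))) := by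
  rw [Q]
  simp [h0, hlt]

/-- The fact recorded at a step. -/
def Fact (t : ℕ) : Prop :=
  (kOf (stp t) < 4 → act (xOf (stp t)) (Q act q0 defs (cOf (stp t))) =
      Q act q0 defs (tgtOf (cell (cOf (stp t)) (xOf (stp t))))) ∧
  (¬ kOf (stp t) < 4 → Q act q0 defs (cOf (stp t)) = Q act q0 defs (tgtOf (eps (cOf (stp t)))))

/-- A word acts trivially. -/
def IsRel (w : List ℕ) : Prop := ∀ q : X, w.foldl (fun q y => act y q) q = q

variable {act q0 cell eps stp defs word ncol hlet}

theorem repC_spec {t : ℕ}
    (he : ∀ g, timeOf (eps g) < t → Q act q0 defs g = Q act q0 defs (tgtOf (eps g)))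
    (f c : ℕ) : Q act q0 defs (repC eps t f c) = Q act q0 defs (tgtOf c) := by
  induction f generalizing c with
  | zero => rfl
  | succ f ih =>
    have h0 : repC eps t (f + 1) c = bif Nat.beq (deadOf c) 0 then tgtOf c else
      bif Nat.blt (timeOf (eps (tgtOf c))) t then repC eps t f (eps (tgtOf c)) else tgtOf c := rfl
    rw [h0]
    cases Nat.beq (deadOf c) 0 with
    | true => rfl
    | false =>
      cases hb : Nat.blt (timeOf (eps (tgtOf c))) t with
      | false => rfl
      | true =>
        show Q act q0 defs (repC eps t f (eps (tgtOf c))) = _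
        rw [ih, ← he _ (blt_lt hb)]

theorem repL_spec {t : ℕ}
    (he : ∀ g, timeOf (eps g) < t → Q act q0 defs g = Q act q0 defs (tgtOf (eps g)))
    (l : ℕ) : Q act q0 defs (repL eps t l) = Q act q0 defs l := by
  unfold repL
  cases hb : Nat.blt (timeOf (eps l)) t with
  | false => rfl
  | true =>
    show Q act q0 defs (repC eps t 64 (eps l)) = _
    rw [repC_spec he, ← he _ (blt_lt hb)]

theorem chk_spec {t : ℕ}
    (hP : ∀ y, ¬ y < ncol → act y q0 = q0)
    (hc : ∀ g y, timeOf (cell g y) < t → act y (Q act q0 defs g) = Q act q0 defs (tgtOf (cell g y)))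
    (he : ∀ g, timeOf (eps g) < t → Q act q0 defs g = Q act q0 defs (tgtOf (eps g)))
    (w : List ℕ) (g tg : ℕ) (h : chk cell eps ncol t w g tg = true) :
    w.foldl (fun q y => act y q) (Q act q0 defs g) = Q act q0 defs tg := by
  induction w generalizing g with
  | nil =>
    have : g = tg := Nat.eq_of_beq_eq_true h
    rw [this]
    rfl
  | cons y w ih =>
    have h0 : chk cell eps ncol t (y :: w) g tg =
      (bif Nat.blt y ncol then
        bif Nat.blt (timeOf (cell g y)) t then chk cell eps ncol t w (repC eps t 64 (cell g y)) tg else false
      else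
        bif Nat.beq g 0 then chk cell eps ncol t w 0 tg else false) := rfl
    rw [h0] at h
    rw [List.foldl_cons]
    cases hy : Nat.blt y ncol with
    | true =>
      rw [hy] at h
      cases ht : Nat.blt (timeOf (cell g y)) t with
      | true =>
        rw [ht] at h
        have h1 := ih _ h
        rw [repC_spec he, ← hc g y (blt_lt ht)] at h1
        exact h1
      | false =>
        rw [ht] at h
        exact absurd h (by simp)
    | false =>
      rw [hy] at h
      cases hg : Nat.beq g 0 with
      | true =>
        rw [hg] at h
        have hg0 : g = 0 := Nat.eq_of_beq_eq_true hg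
        subst hg0
        have h1 := ih _ h
        rw [Q_zero] at h1 ⊢
        have hyn : ¬ y < ncol := by
          intro hlt
          have : Nat.blt y ncol = true := by simpa [Nat.blt] using Nat.ble_eq_true_of_le hlt
          rw [this] at hy
          exact absurd hy (by simp)
        rw [hP y hyn]
        exact h1
      | false =>
        rw [hg] at h
        exact absurd h (by simp)

theorem foldl_inj (hinj : ∀ y, Function.Injective (act y)) (w : List ℕ) {a b : X}
    (h : w.foldl (fun q y => act y q) a = w.foldl (fun q y => act y q) b) : a = b := by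
  induction w generalizing a b with
  | nil => exact h
  | cons y w ih =>
    simp only [List.foldl_cons] at h
    exact hinj y (ih h)

/-- The main soundness theorem. -/
theorem all_facts (M : ℕ)
    (hinj : ∀ y, Function.Injective (act y))
    (hrel : ∀ a, IsRel act (word a))
    (hH : ∀ x, x ∈ hlet → act x q0 = q0)
    (hP : ∀ y, ¬ y < ncol → act y q0 = q0)
    (hstep : ∀ t, t < M → stepOK cell eps stp defs word ncol hlet t = true)
    (hcc : ∀ g y, consCell cell stp M g y = true)
    (hce : ∀ g, consEps eps stp M g = true) :
    ∀ t, t < M → Fact act q0 cell eps stp defs t := by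
  intro t
  induction t using Nat.strong_induction_on with
  | _ t IH =>
    intro htM
    have hc : ∀ g y, timeOf (cell g y) < t → act y (Q act q0 defs g) = Q act q0 defs (tgtOf (cell g y)) := by
      intro g y hlt
      have h1 : timeOf (cell g y) < M := lt_trans hlt htM
      have hcons := hcc g y
      unfold consCell at hcons
      have hb : Nat.blt (timeOf (cell g y)) M = true := by
        simpa [Nat.blt] using Nat.ble_eq_true_of_le h1
      rw [hb] at hcons
      simp only [cond_true, Bool.and_eq_true] at hcons
      obtain ⟨⟨h2, h3⟩, h4⟩ := hcons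
      have h2' := Nat.eq_of_beq_eq_true h2
      have h3' := Nat.eq_of_beq_eq_true h3
      have h4' : kOf (stp (timeOf (cell g y))) < 4 := blt_lt h4
      have hF := (IH _ hlt h1).1 h4'
      rw [h2', h3'] at hF
      exact hF
    have he : ∀ g, timeOf (eps g) < t → Q act q0 defs g = Q act q0 defs (tgtOf (eps g)) := by
      intro g hlt
      have h1 : timeOf (eps g) < M := lt_trans hlt htM
      have hcons := hce g
      unfold consEps at hcons
      have hb : Nat.blt (timeOf (eps g)) M = true := by
        simpa [Nat.blt] using Nat.ble_eq_true_of_le h1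
      rw [hb] at hcons
      simp only [cond_true, Bool.and_eq_true, Bool.not_eq_true'] at hcons
      obtain ⟨h2, h4⟩ := hcons
      have h2' := Nat.eq_of_beq_eq_true h2
      have h4' : ¬ kOf (stp (timeOf (eps g))) < 4 := by
        intro hlt4
        have : Nat.blt (kOf (stp (timeOf (eps g)))) 4 = true := by
          simpa [Nat.blt] using Nat.ble_eq_true_of_le hlt4
        rw [this] at h4
        exact absurd h4 (by simp)
      have hF := (IH _ hlt h1).2 h4'
      rw [h2'] at hF
      exact hF
    have hS := hstep t htM
    unfold stepOK at hS
    simp only at hS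
    -- case split on the kind
    unfold Fact
    set s := stp t with hs
    set k := kOf s with hk
    set x := xOf s with hx
    set c := cOf s with hc'
    set a := aOf s with ha
    by_cases k2 : Nat.beq k 2 = true
    · rw [k2] at hS
      have hk2 : k = 2 := Nat.eq_of_beq_eq_true k2
      refine ⟨fun _ => ?_, fun hn => absurd (by omega) hn⟩
      simp only [cond_true] at hS
      cases hw : word a with
      | nil =>
        rw [hw] at hS
        exact absurd hS (by simp)
      | cons y w =>
        rw [hw] at hS
        have hS' : (bif Nat.beq y x then chk cell eps ncol t w (tgtOf (cell c x)) c else false) = true := hS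
        cases hyx : Nat.beq y x with
        | false =>
          rw [hyx] at hS'
          exact absurd hS' (by simp)
        | true =>
          rw [hyx] at hS'
          have hyx' : y = x := Nat.eq_of_beq_eq_true hyx
          have h1 := chk_spec hP hc he w _ _ hS'
          have h2 := hrel a (Q act q0 defs c)
          rw [hw, List.foldl_cons, hyx'] at h2
          exact foldl_inj hinj w (h2.trans h1.symm)
    · have k2' : Nat.beq k 2 = false := (Bool.not_eq_true _).mp k2
      rw [k2'] at hS
      simp only [cond_false] at hS
      by_cases k0 : Nat.beq k 0 = true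
      · rw [k0] at hS
        have hk0 : k = 0 := Nat.eq_of_beq_eq_true k0
        refine ⟨fun _ => ?_, fun hn => absurd (by omega) hn⟩
        simp only [cond_true, Bool.and_eq_true] at hS
        obtain ⟨⟨h1, h2⟩, h3⟩ := hS
        have h1' : c < tgtOf (cell c x) := blt_lt h1
        have h2' := Nat.eq_of_beq_eq_true h2
        have h3' := Nat.eq_of_beq_eq_true h3
        rw [Q_step (act := act) (q0 := q0) (defs := defs) (d := tgtOf (cell c x)) (by omega) (by rw [h2']; exact h1'), h2', h3']
      · have k0' : Nat.beq k 0 = false := (Bool.not_eq_true _).mp k0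
        rw [k0'] at hS
        simp only [cond_false] at hS
        by_cases k1 : Nat.beq k 1 = true
        · rw [k1] at hS
          have hk1 : k = 1 := Nat.eq_of_beq_eq_true k1
          refine ⟨fun _ => ?_, fun hn => absurd (by omega) hn⟩
          simp only [cond_true, Bool.and_eq_true] at hS
          obtain ⟨⟨h1, h2⟩, h3⟩ := hS
          have h1' := Nat.eq_of_beq_eq_true h1
          have h2' := Nat.eq_of_beq_eq_true h2
          rw [h1'] at h2' ⊢
          rw [h2', Q_zero]
          exact hH x (by simpa using h3)
        · have k1' : Nat.beq k 1 = false := (Bool.not_eq_true _).mp k1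
          rw [k1'] at hS
          simp only [cond_false] at hS
          by_cases k3 : Nat.beq k 3 = true
          · rw [k3] at hS
            have hk3 : k = 3 := Nat.eq_of_beq_eq_true k3
            refine ⟨fun _ => ?_, fun hn => absurd (by omega) hn⟩
            simp only [cond_true, Bool.and_eq_true] at hS
            obtain ⟨⟨h1, h2⟩, h3⟩ := hS
            have h1' : timeOf (cell a x) < t := blt_lt h1
            have h2' := Nat.eq_of_beq_eq_true h2
            have h3' := Nat.eq_of_beq_eq_true h3
            have e1 : Q act q0 defs c = Q act q0 defs a := by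
              rw [← repL_spec he c, ← h2', repL_spec he a]
            rw [e1, hc a x h1', ← repC_spec he 64 (cell a x), h3', repL_spec he]
          · have k3' : Nat.beq k 3 = false := (Bool.not_eq_true _).mp k3
            rw [k3'] at hS
            simp only [cond_false] at hS
            by_cases k4 : Nat.beq k 4 = true
            · rw [k4] at hS
              have hk4 : k = 4 := Nat.eq_of_beq_eq_true k4
              refine ⟨fun hn => absurd hn (by omega), fun _ => ?_⟩
              simp only [cond_true] at hS
              cases hx0 : Nat.beq x 0 with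
              | true =>
                rw [hx0] at hS
                have h1 := chk_spec hP hc he _ _ _ hS
                rw [hrel a] at h1
                exact h1
              | false =>
                rw [hx0] at hS
                have h1 := chk_spec hP hc he _ _ _ hS
                rw [hrel a] at h1
                exact h1.symm
            · have k4' : Nat.beq k 4 = false := (Bool.not_eq_true _).mp k4
              rw [k4'] at hS
              simp only [cond_false] at hS
              by_cases k5 : Nat.beq k 5 = true
              · rw [k5] at hS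
                have hk5 : k = 5 := Nat.eq_of_beq_eq_true k5
                refine ⟨fun hn => absurd hn (by omega), fun _ => ?_⟩
                simp only [cond_true, Bool.and_eq_true, Bool.or_eq_true] at hS
                obtain ⟨⟨h1, h2⟩, h3⟩ := hS
                have h1' : timeOf (cell a x) < t := blt_lt h1
                have h2' : timeOf (cell (repL eps t a) x) < t := blt_lt h2
                have e1 : Q act q0 defs (repC eps t 64 (cell a x)) =
                    Q act q0 defs (repC eps t 64 (cell (repL eps t a) x)) := by
                  rw [repC_spec he, repC_spec he, ← hc _ _ h1', ← hc _ _ h2', repL_spec he]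
                rcases h3 with ⟨h4, h5⟩ | ⟨h4, h5⟩
                · rw [Nat.eq_of_beq_eq_true h4, Nat.eq_of_beq_eq_true h5] at e1
                  exact e1
                · rw [Nat.eq_of_beq_eq_true h4, Nat.eq_of_beq_eq_true h5] at e1
                  exact e1.symm
              · have k5' : Nat.beq k 5 = false := (Bool.not_eq_true _).mp k5
                rw [k5'] at hS
                simp at hS

/-- Conclusion for a complete table. -/
theorem final_cell (M : ℕ) (hF : ∀ t, t < M → Fact act q0 cell eps stp defs t)
    (hcc : ∀ g y, consCell cell stp M g y = true)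
    (hce : ∀ g, consEps eps stp M g = true)
    (l y l' : ℕ) (h1 : timeOf (cell l y) < M) (h2 : repC eps M 64 (cell l y) = l') :
    act y (Q act q0 defs l) = Q act q0 defs l' := by
  have he : ∀ g, timeOf (eps g) < M → Q act q0 defs g = Q act q0 defs (tgtOf (eps g)) := by
    intro g hlt
    have hcons := hce g
    unfold consEps at hcons
    have hb : Nat.blt (timeOf (eps g)) M = true := by
      simpa [Nat.blt] using Nat.ble_eq_true_of_le hlt
    rw [hb] at hcons
    simp only [cond_true, Bool.and_eq_true, Bool.not_eq_true'] at hcons
    obtain ⟨h3, h4⟩ := hcons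
    have h2' := Nat.eq_of_beq_eq_true h3
    have h4' : ¬ kOf (stp (timeOf (eps g))) < 4 := by
      intro hlt4
      have : Nat.blt (kOf (stp (timeOf (eps g)))) 4 = true := by
        simpa [Nat.blt] using Nat.ble_eq_true_of_le hlt4
      rw [this] at h4
      exact absurd h4 (by simp)
    have hFF := (hF _ hlt).2 h4'
    rw [h2'] at hFF
    exact hFF
  rw [← h2, repC_spec he]
  have hcons := hcc l y
  unfold consCell at hcons
  have hb : Nat.blt (timeOf (cell l y)) M = true := by
    simpa [Nat.blt] using Nat.ble_eq_true_of_le h1
  rw [hb] at hcons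
  simp only [cond_true, Bool.and_eq_true] at hcons
  obtain ⟨⟨h3, h4⟩, h5⟩ := hcons
  have h3' := Nat.eq_of_beq_eq_true h3
  have h4' := Nat.eq_of_beq_eq_true h4
  have h5' : kOf (stp (timeOf (cell l y))) < 4 := blt_lt h5
  have hFF := (hF _ h1).1 h5'
  rw [h3', h4'] at hFF
  exact hFF

end Sound

end

end Cfsg.Agent.H07.Coset
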