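import Mathlib
import Cfsg.Agent.Lib.H07.Coset

/-!
# Coset tables and presented groups

Upper bound for the index from a table of facts; lower bound from a permutation representation
read off the same table.
-/

set_option autoImplicit false

namespace Cfsg.Agent.H07.Coset

section GroupPart

variable {G : Type*} [Group G] (K : Subgroup G) (L : ℕ → G)

/-- Letters act on the cosets by the inverse of their value. -/
def actG (y : ℕ) (q : G ⧸ K) : G ⧸ K := (L y)⁻¹ • q

theorem actG_inj (y : ℕ) : Function.Injective (actG K L y) := MulAction.injective _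

theorem foldl_actG (w : List ℕ) (q : G ⧸ K) :
    w.foldl (fun q y => actG K L y q) q = ((w.map L).prod)⁻¹ • q := by
  induction w generalizing q with
  | nil => simp
  | cons y w ih =>
    rw [List.foldl_cons, ih]
    simp only [List.map_cons, List.prod_cons, actG, mul_inv_rev, mul_smul]

theorem isRel_of_prod {w : List ℕ} (h : (w.map L).prod = 1) : IsRel (actG K L) w := by
  intro q
  rw [foldl_actG, h]
  simp

theorem prod_rotate_one {w : List ℕ} (h : (w.map L).prod = 1) (s : ℕ) :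
    ((w.rotate s).map L).prod = 1 := by
  rw [List.map_rotate]
  exact List.prod_rotate_eq_one_of_prod_eq_one h s

/-- Cosets are covered by a table closed under the letters. -/
theorem cover_of_table {n ncol : ℕ} (R : ℕ → G ⧸ K) (T : ℕ → ℕ → ℕ) (h0 : 0 < n)
    (hR0 : R 0 = ((1 : G) : G ⧸ K))
    (hT : ∀ i, i < n → ∀ y, y < ncol → T i y < n ∧ actG K L y (R i) = R (T i y))
    (hgen : Subgroup.closure (L '' {y | y < ncol}) = ⊤)
    (hinv : ∀ y, y < ncol → ∃ y', y' < ncol ∧ L y' = (L y)⁻¹) (q : G ⧸ K) :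
    ∃ i, i < n ∧ q = R i := by
  have key : ∀ g : G, ∀ i, i < n → ∃ j, j < n ∧ g⁻¹ • R i = R j := by
    intro g
    have hg : g ∈ Subgroup.closure (L '' {y | y < ncol}) := by rw [hgen]; trivial
    induction hg using Subgroup.closure_induction'' with
    | mem x hx =>
      obtain ⟨y, hy, rfl⟩ := hx
      intro i hi
      exact ⟨T i y, (hT i hi y hy).1, (hT i hi y hy).2⟩
    | inv_mem x hx =>
      obtain ⟨y, hy, rfl⟩ := hx
      intro i hi
      obtain ⟨y', hy', hL⟩ := hinv y hy
      refine ⟨T i y', (hT i hi y' hy').1, ?_⟩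
      have := (hT i hi y' hy').2
      rw [← this, actG, hL]
    | one =>
      intro i hi
      exact ⟨i, hi, by simp⟩
    | mul x y _ _ ihx ihy =>
      intro i hi
      obtain ⟨j, hj, hjr⟩ := ihx i hi
      obtain ⟨k, hk, hkr⟩ := ihy j hj
      refine ⟨k, hk, ?_⟩
      rw [mul_inv_rev, mul_smul, hjr, hkr]
  obtain ⟨a, rfl⟩ := QuotientGroup.mk_surjective q
  obtain ⟨j, hj, hjr⟩ := key a⁻¹ 0 h0
  refine ⟨j, hj, ?_⟩
  rw [← hjr, hR0, inv_inv]
  simp

/-- Bound on the index from a cover. -/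
theorem index_le_of_cover {n : ℕ} (R : ℕ → G ⧸ K)
    (hc : ∀ q : G ⧸ K, ∃ i, i < n ∧ q = R i) : K.index ≤ n ∧ K.index ≠ 0 := by
  let f : Fin n → G ⧸ K := fun i => R i.1
  have hf : Function.Surjective f := by
    intro q
    obtain ⟨i, hi, rfl⟩ := hc q
    exact ⟨⟨i, hi⟩, rfl⟩
  haveI : Finite (G ⧸ K) := Finite.of_surjective f hf
  constructor
  · have := Nat.card_le_card_of_surjective f hf
    simpa [Subgroup.index] using this
  · exact Subgroup.index_ne_zero_of_finite

/-- The map from cosets to the points of a permutation representation. -/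
noncomputable def phi {n : ℕ} [NeZero n] (ρ : G →* Equiv.Perm (Fin n)) (q : G ⧸ K) : Fin n :=
  ρ q.out 0

theorem phi_mk {n : ℕ} [NeZero n] (ρ : G →* Equiv.Perm (Fin n)) (hK : ∀ k ∈ K, ρ k 0 = 0) (a : G) :
    phi K ρ (a : G ⧸ K) = ρ a 0 := by
  unfold phi
  obtain ⟨h, hh⟩ := QuotientGroup.mk_out_eq_mul K a
  rw [hh, map_mul, Equiv.Perm.mul_apply, hK _ h.2]

theorem phi_smul {n : ℕ} [NeZero n] (ρ : G →* Equiv.Perm (Fin n)) (hK : ∀ k ∈ K, ρ k 0 = 0) (g : G)
    (q : G ⧸ K) : phi K ρ (g • q) = ρ g (phi K ρ q) := by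
  obtain ⟨a, rfl⟩ := QuotientGroup.mk_surjective q
  have : g • (a : G ⧸ K) = ((g * a : G) : G ⧸ K) := rfl
  rw [this, phi_mk K ρ hK, phi_mk K ρ hK, map_mul, Equiv.Perm.mul_apply]

/-- The index from a table and a transitive representation. -/
theorem index_eq_of_rep {n : ℕ} [NeZero n] (ρ : G →* Equiv.Perm (Fin n))
    (hK : ∀ k ∈ K, ρ k 0 = 0) (htrans : ∀ i : Fin n, ∃ g, ρ g 0 = i)
    (hle : K.index ≤ n) (hne : K.index ≠ 0) : K.index = n := by
  apply le_antisymm hle
  have : Finite (G ⧸ K) := Subgroup.index_ne_zero_iff_finite.mp hne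
  have hs : Function.Surjective (phi K ρ) := by
    intro i
    obtain ⟨g, hg⟩ := htrans i
    exact ⟨(g : G ⧸ K), by rw [phi_mk K ρ hK, hg]⟩
  have := Nat.card_le_card_of_surjective _ hs
  simpa [Subgroup.index] using this

theorem phi_bijective {n : ℕ} [NeZero n] (ρ : G →* Equiv.Perm (Fin n))
    (hK : ∀ k ∈ K, ρ k 0 = 0) (htrans : ∀ i : Fin n, ∃ g, ρ g 0 = i)
    (hidx : K.index = n) : Function.Bijective (phi K ρ) := by
  have hs : Function.Surjective (phi K ρ) := by
    intro i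
    obtain ⟨g, hg⟩ := htrans i
    exact ⟨(g : G ⧸ K), by rw [phi_mk K ρ hK, hg]⟩
  have hne : K.index ≠ 0 := by
    rw [hidx]
    exact NeZero.ne n
  have : Finite (G ⧸ K) := Subgroup.index_ne_zero_iff_finite.mp hne
  have hcard : Nat.card (G ⧸ K) = Nat.card (Fin n) := by
    rw [Nat.card_fin]
    exact hidx
  exact (Function.Surjective.bijective_of_nat_card_le hs hcard.le)

/-- Orbits of `K` on cosets from a stable set of points. -/
theorem orbit_ncard {n : ℕ} [NeZero n] (ρ : G →* Equiv.Perm (Fin n))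
    (hK : ∀ k ∈ K, ρ k 0 = 0) (hb : Function.Bijective (phi K ρ)) (O : Set (Fin n)) (p : Fin n)
    (hp : p ∈ O) (hclosed : ∀ k ∈ K, ∀ i ∈ O, ρ k i ∈ O) (hreach : ∀ i ∈ O, ∃ k ∈ K, ρ k p = i) :
    ∃ q : G ⧸ K, phi K ρ q = p ∧ (MulAction.orbit K q).ncard = O.ncard := by
  obtain ⟨q, hq⟩ := hb.2 p
  refine ⟨q, hq, ?_⟩
  have himg : phi K ρ '' (MulAction.orbit K q) = O := by
    ext i
    constructor
    · rintro ⟨q', ⟨k, rfl⟩, rfl⟩
      have : phi K ρ ((k : K) • q) = ρ (k : G) p := by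
        rw [← hq]
        exact phi_smul K ρ hK (k : G) q
      rw [this]
      exact hclosed _ k.2 _ hp
    · intro hi
      obtain ⟨k, hk, hki⟩ := hreach i hi
      refine ⟨(⟨k, hk⟩ : K) • q, ⟨⟨k, hk⟩, rfl⟩, ?_⟩
      rw [← hki, ← hq]
      exact phi_smul K ρ hK k q
  rw [← himg, Set.ncard_image_of_injective _ hb.1]

end GroupPart

section Table

variable {α : Type*} [DecidableEq α] (T : ℕ → ℕ → ℕ) (col : α → Bool → ℕ) (n N : ℕ)

/-- Walk a word in the table. -/
def walk (i : ℕ) (w : List ℕ) : ℕ := w.foldl T i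

theorem walk_nil (i : ℕ) : walk T i [] = i := rfl
theorem walk_cons (i y : ℕ) (w : List ℕ) : walk T i (y :: w) = walk T (T i y) w := rfl
theorem walk_append (i : ℕ) (u v : List ℕ) : walk T i (u ++ v) = walk T (walk T i u) v := by
  simp [walk, List.foldl_append]

/-- Word read off by the representation. -/
def wordOf (l : List (α × Bool)) : List ℕ := (l.reverse).map (fun p => col p.1 (!p.2))

variable {T col n N}

/-- The permutation of a generator. -/
def permT (hb : ∀ x c, ∀ i, i < n → T i (col x c) < n)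
    (hi : ∀ x c, ∀ i, i < n → T (T i (col x c)) (col x (!c)) = i) (x : α) : Equiv.Perm (Fin n) where
  toFun i := ⟨T i.1 (col x false), hb x false i.1 i.2⟩
  invFun i := ⟨T i.1 (col x true), hb x true i.1 i.2⟩
  left_inv i := Fin.ext (hi x false i.1 i.2)
  right_inv i := Fin.ext (hi x true i.1 i.2)

theorem lift_apply (hb : ∀ x c, ∀ i, i < n → T i (col x c) < n)
    (hi : ∀ x c, ∀ i, i < n → T (T i (col x c)) (col x (!c)) = i) (l : List (α × Bool)) (i : Fin n) :
    ((FreeGroup.lift (permT hb hi) (FreeGroup.mk l)) i).1 = walk T i.1 (wordOf col l) := by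
  induction l with
  | nil => 
    simp [wordOf, walk]
  | cons p l ih =>
    rw [FreeGroup.lift_mk] at ih ⊢
    rw [List.map_cons, List.prod_cons, Equiv.Perm.mul_apply]
    have hw : wordOf col (p :: l) = wordOf col l ++ [col p.1 (!p.2)] := by
      simp [wordOf]
    rw [hw, walk_append, ← ih]
    obtain ⟨x, b⟩ := p
    cases b
    · rfl
    · rfl

theorem walk_rotate (hb : ∀ y, y < N → ∀ i, i < n → T i y < n)
    (hs : ∀ y, y < N → ∀ j, j < n → ∃ i, i < n ∧ T i y = j) {w : List ℕ} (hw : ∀ y ∈ w, y < N)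
    (h : ∀ i, i < n → walk T i w = i) (s : ℕ) : ∀ i, i < n → walk T i (w.rotate s) = i := by
  induction s with
  | zero =>
    simpa using h
  | succ s ih =>
    rw [← List.rotate_rotate]
    have hw' : ∀ y ∈ w.rotate s, y < N := fun y hy => hw y (List.mem_rotate.mp hy)
    cases hc : w.rotate s with
    | nil => simpa [hc] using ih
    | cons a u =>
      rw [hc] at ih hw'
      intro i hi
      rw [List.rotate_cons_succ, List.rotate_zero, walk_append]
      obtain ⟨k, hk, rfl⟩ := hs a (hw' a (by simp)) i hi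
      have := ih k hk
      rw [walk_cons] at this
      rw [this]
      rfl

end Table

section Pres

variable {α : Type*} [DecidableEq α] {rels : Set (FreeGroup α)}
  {T : ℕ → ℕ → ℕ} {col : α → Bool → ℕ} {n : ℕ}

theorem lift_one (hb : ∀ x c, ∀ i, i < n → T i (col x c) < n)
    (hi : ∀ x c, ∀ i, i < n → T (T i (col x c)) (col x (!c)) = i)
    (hrel : ∀ r ∈ rels, ∀ i, i < n → walk T i (wordOf col r.toWord) = i) :
    ∀ r ∈ rels, FreeGroup.lift (permT hb hi) r = 1 := by
  intro r hr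
  refine Equiv.ext fun i => Fin.ext ?_
  have h1 := lift_apply hb hi r.toWord i
  rw [FreeGroup.mk_toWord] at h1
  rw [h1, hrel r hr i.1 i.2]
  rfl

/-- The representation given by the table. -/
def rhoT (hb : ∀ x c, ∀ i, i < n → T i (col x c) < n)
    (hi : ∀ x c, ∀ i, i < n → T (T i (col x c)) (col x (!c)) = i)
    (hrel : ∀ r ∈ rels, ∀ i, i < n → walk T i (wordOf col r.toWord) = i) :
    PresentedGroup rels →* Equiv.Perm (Fin n) :=
  PresentedGroup.toGroup (lift_one hb hi hrel)

theorem rhoT_mk (hb : ∀ x c, ∀ i, i < n → T i (col x c) < n)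
    (hi : ∀ x c, ∀ i, i < n → T (T i (col x c)) (col x (!c)) = i)
    (hrel : ∀ r ∈ rels, ∀ i, i < n → walk T i (wordOf col r.toWord) = i)
    (r : FreeGroup α) (i : Fin n) :
    ((rhoT hb hi hrel (PresentedGroup.mk rels r)) i).1 = walk T i.1 (wordOf col r.toWord) := by
  have h1 := lift_apply hb hi r.toWord i
  rw [FreeGroup.mk_toWord] at h1
  rw [← h1]
  rfl

theorem rhoT_trans [NeZero n] (hb : ∀ x c, ∀ i, i < n → T i (col x c) < n)
    (hi : ∀ x c, ∀ i, i < n → T (T i (col x c)) (col x (!c)) = i)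
    (hrel : ∀ r ∈ rels, ∀ i, i < n → walk T i (wordOf col r.toWord) = i)
    (hdesc : ∀ i, 0 < i → i < n → ∃ x c, T i (col x c) < i) (i : Fin n) :
    ∃ g, rhoT hb hi hrel g 0 = i := by
  obtain ⟨i, hin⟩ := i
  induction i using Nat.strong_induction_on with
  | _ i IH =>
    by_cases hi0 : i = 0
    · subst hi0
      exact ⟨1, by simp⟩
    · obtain ⟨x, c, hlt⟩ := hdesc i (by omega) hin
      obtain ⟨g, hg⟩ := IH _ hlt (lt_trans hlt hin)
      refine ⟨(PresentedGroup.mk rels (cond c (FreeGroup.of x) (FreeGroup.of x)⁻¹)) * g, ?_⟩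
      rw [map_mul, Equiv.Perm.mul_apply, hg]
      refine Fin.ext ?_
      rw [rhoT_mk]
      cases c
      · have : ((FreeGroup.of x)⁻¹ : FreeGroup α).toWord = [(x, false)] := by
          rw [FreeGroup.toWord_inv, FreeGroup.toWord_of]
          rfl
        simp only [cond_false, this, wordOf, List.reverse_cons, List.reverse_nil, List.nil_append,
          List.map_cons, List.map_nil, walk_cons, walk_nil]
        exact hi x false i hin
      · have : (FreeGroup.of x : FreeGroup α).toWord = [(x, true)] := FreeGroup.toWord_of x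
        simp only [cond_true, this, wordOf, List.reverse_cons, List.reverse_nil, List.nil_append,
          List.map_cons, List.map_nil, walk_cons, walk_nil]
        exact hi x true i hin

theorem rhoT_fix [NeZero n] (hb : ∀ x c, ∀ i, i < n → T i (col x c) < n)
    (hi : ∀ x c, ∀ i, i < n → T (T i (col x c)) (col x (!c)) = i)
    (hrel : ∀ r ∈ rels, ∀ i, i < n → walk T i (wordOf col r.toWord) = i)
    {S : Set (FreeGroup α)} (hS : ∀ s ∈ S, walk T 0 (wordOf col s.toWord) = 0) :
    ∀ k ∈ (Subgroup.closure S).map (PresentedGroup.mk rels), rhoT hb hi hrel k 0 = 0 := by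
  have hle : (Subgroup.closure S) ≤
      ((MulAction.stabilizer (Equiv.Perm (Fin n)) (0 : Fin n)).comap (rhoT hb hi hrel)).comap
        (PresentedGroup.mk rels) := by
    rw [Subgroup.closure_le]
    intro s hs
    show rhoT hb hi hrel (PresentedGroup.mk rels s) ∈ MulAction.stabilizer (Equiv.Perm (Fin n)) (0 : Fin n)
    rw [MulAction.mem_stabilizer_iff]
    refine Fin.ext ?_
    have := rhoT_mk hb hi hrel s 0
    rw [Equiv.Perm.smul_def, this]
    exact hS s hs
  rintro k ⟨s, hs, rfl⟩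
  exact hle hs

/-- An interval of points is an orbit of `K`. -/
theorem interval_orbit [NeZero n] (hb : ∀ x c, ∀ i, i < n → T i (col x c) < n)
    (hi : ∀ x c, ∀ i, i < n → T (T i (col x c)) (col x (!c)) = i)
    (hrel : ∀ r ∈ rels, ∀ i, i < n → walk T i (wordOf col r.toWord) = i)
    {S : Set (FreeGroup α)} (SW : List (List ℕ))
    (hSW : ∀ s ∈ S, wordOf col s.toWord ∈ SW ∧ wordOf col (s⁻¹).toWord ∈ SW)
    (hSW' : ∀ w ∈ SW, ∃ s ∈ S, w = wordOf col s.toWord ∨ w = wordOf col (s⁻¹).toWord)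
    (lo hi' : ℕ) (hlo : lo < hi') (hhi : hi' ≤ n)
    (hcl : ∀ i, lo ≤ i → i < hi' → ∀ w ∈ SW, lo ≤ walk T i w ∧ walk T i w < hi')
    (hdesc : ∀ i, lo < i → i < hi' → ∃ w ∈ SW, walk T i w < i) :
    ∀ k ∈ (Subgroup.closure S).map (PresentedGroup.mk rels), ∀ i : Fin n, lo ≤ i.1 → i.1 < hi' →
      lo ≤ (rhoT hb hi hrel k i).1 ∧ (rhoT hb hi hrel k i).1 < hi' := by
  rintro k ⟨s, hs, rfl⟩
  induction hs using Subgroup.closure_induction'' with
  | mem s hs =>
    intro i h1 h2
    rw [rhoT_mk]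
    exact hcl i.1 h1 h2 _ (hSW s hs).1
  | inv_mem s hs =>
    intro i h1 h2
    rw [rhoT_mk]
    exact hcl i.1 h1 h2 _ (hSW s hs).2
  | one =>
    intro i h1 h2
    simpa using ⟨h1, h2⟩
  | mul a b _ _ iha ihb =>
    intro i h1 h2
    have h3 := ihb i h1 h2
    have h4 := iha _ h3.1 h3.2
    rw [map_mul, map_mul, Equiv.Perm.mul_apply]
    exact h4

theorem interval_reach [NeZero n] (hb : ∀ x c, ∀ i, i < n → T i (col x c) < n)
    (hi : ∀ x c, ∀ i, i < n → T (T i (col x c)) (col x (!c)) = i)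
    (hrel : ∀ r ∈ rels, ∀ i, i < n → walk T i (wordOf col r.toWord) = i)
    {S : Set (FreeGroup α)} (SW : List (List ℕ))
    (hSW' : ∀ w ∈ SW, ∃ s ∈ S, w = wordOf col s.toWord ∨ w = wordOf col (s⁻¹).toWord)
    (lo hi' : ℕ) (hlo : lo < hi') (hhi : hi' ≤ n)
    (hcl : ∀ i, lo ≤ i → i < hi' → ∀ w ∈ SW, lo ≤ walk T i w ∧ walk T i w < hi')
    (hdesc : ∀ i, lo < i → i < hi' → ∃ w ∈ SW, walk T i w < i) (p : Fin n) (hp : p.1 = lo) :
    ∀ i : Fin n, lo ≤ i.1 → i.1 < hi' →
      ∃ k ∈ (Subgroup.closure S).map (PresentedGroup.mk rels), rhoT hb hi hrel k p = i := by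
  intro i
  obtain ⟨i, hin⟩ := i
  induction i using Nat.strong_induction_on with
  | _ i IH =>
    intro h1 h2
    by_cases hil : i = lo
    · refine ⟨1, one_mem _, ?_⟩
      simp only [map_one, Equiv.Perm.one_apply]
      exact Fin.ext (hp.trans hil.symm)
    · obtain ⟨w, hw, hwlt⟩ := hdesc i (by simp only at h1; omega) h2
      obtain ⟨h3, h4⟩ := hcl i h1 h2 w hw
      obtain ⟨k, hk, hkp⟩ := IH _ hwlt (by omega) h3 h4
      obtain ⟨s, hs, hsw⟩ := hSW' w hw
      -- the element moving `i` to `walk T i w`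
      obtain ⟨u, hu, hui⟩ : ∃ u ∈ (Subgroup.closure S).map (PresentedGroup.mk rels),
          (rhoT hb hi hrel u ⟨i, hin⟩).1 = walk T i w := by
        rcases hsw with rfl | rfl
        · exact ⟨_, Subgroup.mem_map_of_mem _ (Subgroup.subset_closure hs), by rw [rhoT_mk]⟩
        · exact ⟨PresentedGroup.mk rels s⁻¹, Subgroup.mem_map_of_mem _ (inv_mem (Subgroup.subset_closure hs)), by rw [rhoT_mk]⟩
      refine ⟨u⁻¹ * k, mul_mem (inv_mem hu) hk, ?_⟩
      rw [map_mul, Equiv.Perm.mul_apply, hkp, map_inv, Equiv.Perm.inv_eq_iff_eq]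
      exact Fin.ext hui.symm

end Pres

end Cfsg.Agent.H07.Coset
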