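import Mathlib
import Cfsg.Agent.Lib.H07.Coset2
import Cfsg.Prelude.Def_SporCoxeter

/-!
# Assembling certificates for presented groups
-/

set_option autoImplicit false

namespace Cfsg.Agent.H07.Coset

noncomputable section

/-- Read a field from a chunked array. -/
def rdArr (t : BT ℕ) (w kb mask low i : ℕ) : ℕ :=
  Nat.land (Nat.shiftRight (t.get (Nat.shiftRight i kb)) (Nat.mul w (Nat.land i low))) mask

/-- Table of cells with range guards. -/
def mkCell (raw : ℕ → ℕ) (N ncol undef g y : ℕ) : ℕ :=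
  bif Nat.blt g N then (bif Nat.blt y ncol then raw (Nat.add (Nat.mul g ncol) y) else undef) else undef

/-- Table of merges with a range guard. -/
def mkEps (raw : ℕ → ℕ) (N undef g : ℕ) : ℕ :=
  bif Nat.blt g N then raw g else undef

/-- Walk with a recursor. -/
def walkR (T : ℕ → ℕ → ℕ) (w : List ℕ) : ℕ → ℕ :=
  @List.rec ℕ (fun _ => ℕ → ℕ) (fun i => i) (fun y _ ih i => ih (T i y)) w

theorem walkR_eq (T : ℕ → ℕ → ℕ) (w : List ℕ) (i : ℕ) : walkR T w i = walk T i w := by
  induction w generalizing i with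
  | nil => rfl
  | cons y w ih => exact ih (T i y)

theorem blt_of_lt {a b : ℕ} (h : a < b) : Nat.blt a b = true := Nat.ble_eq_true_of_le h

theorem consCell_all {cell : ℕ → ℕ → ℕ} {stp : ℕ → ℕ} {M N ncol : ℕ}
    (hU : ∀ g y, (N ≤ g ∨ ncol ≤ y) → M ≤ timeOf (cell g y))
    (h : ∀ g, g < N → ∀ y, y < ncol → consCell cell stp M g y = true) (g y : ℕ) :
    consCell cell stp M g y = true := by
  by_cases hg : g < N ∧ y < ncol
  · exact h g hg.1 y hg.2
  · have h1 := hU g y (by omega)
    unfold consCell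
    have : Nat.blt (timeOf (cell g y)) M = false := by
      cases hb : Nat.blt (timeOf (cell g y)) M with
      | false => rfl
      | true =>
        have := blt_lt hb
        omega
    rw [this]
    rfl

theorem consEps_all {eps : ℕ → ℕ} {stp : ℕ → ℕ} {M N : ℕ}
    (hU : ∀ g, N ≤ g → M ≤ timeOf (eps g))
    (h : ∀ g, g < N → consEps eps stp M g = true) (g : ℕ) :
    consEps eps stp M g = true := by
  by_cases hg : g < N
  · exact h g hg
  · have h1 := hU g (by omega)
    unfold consEps
    have : Nat.blt (timeOf (eps g)) M = false := by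
      cases hb : Nat.blt (timeOf (eps g)) M with
      | false => rfl
      | true =>
        have := blt_lt hb
        omega
    rw [this]
    rfl

theorem mkCell_undef (raw : ℕ → ℕ) (N ncol undef g y : ℕ) (h : N ≤ g ∨ ncol ≤ y) :
    mkCell raw N ncol undef g y = undef := by
  unfold mkCell
  rcases h with h | h
  · have : Nat.blt g N = false := by
      cases hb : Nat.blt g N with
      | false => rfl
      | true =>
        have := blt_lt hb
        omega
    rw [this]
    rfl
  · have : Nat.blt y ncol = false := by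
      cases hb : Nat.blt y ncol with
      | false => rfl
      | true =>
        have := blt_lt hb
        omega
    rw [this]
    cases Nat.blt g N <;> rfl

theorem mkEps_undef (raw : ℕ → ℕ) (N undef g : ℕ) (h : N ≤ g) : mkEps raw N undef g = undef := by
  unfold mkEps
  have : Nat.blt g N = false := by
    cases hb : Nat.blt g N with
    | false => rfl
    | true =>
      have := blt_lt hb
      omega
  rw [this]
  rfl

section Main

variable {α : Type*} [DecidableEq α] (rels : Set (FreeGroup α))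
  (col : α → Bool → ℕ) (ncol : ℕ) (letter : ℕ → α × Bool) (hwf : ℕ → FreeGroup α) (ybar : ℕ → ℕ)

/-- Values of the letters in the presented group. -/
def Lp (y : ℕ) : PresentedGroup rels :=
  if y < ncol then cond (letter y).2 (PresentedGroup.of (letter y).1) (PresentedGroup.of (letter y).1)⁻¹
  else if (y - ncol) % 2 = 0 then PresentedGroup.mk rels (hwf ((y - ncol) / 2))
    else (PresentedGroup.mk rels (hwf ((y - ncol) / 2)))⁻¹

/-- Word of columns of an element of the free group. -/
def fw (r : FreeGroup α) : List ℕ := r.toWord.map (fun p => col p.1 p.2)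

/-- Inverse word. -/
def invW (w : List ℕ) : List ℕ := w.reverse.map ybar

variable {rels col ncol letter hwf ybar}

theorem mk_eq_lift (r : FreeGroup α) :
    PresentedGroup.mk rels r = FreeGroup.lift (fun x => (PresentedGroup.of x : PresentedGroup rels)) r := by
  have : (PresentedGroup.mk rels) = FreeGroup.lift (fun x => (PresentedGroup.of x : PresentedGroup rels)) := by
    apply FreeGroup.ext_hom
    intro x
    simp [PresentedGroup.of]
  rw [this]

theorem fw_prod (hL : ∀ x c, Lp rels ncol letter hwf (col x c) =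
      cond c (PresentedGroup.of x) (PresentedGroup.of x)⁻¹) (r : FreeGroup α) :
    ((fw col r).map (Lp rels ncol letter hwf)).prod = PresentedGroup.mk rels r := by
  rw [mk_eq_lift]
  conv_rhs => rw [← FreeGroup.mk_toWord (x := r)]
  rw [FreeGroup.lift_mk, fw, List.map_map]
  congr 1
  apply List.map_congr_left
  rintro ⟨x, c⟩ _
  simp only [Function.comp]
  exact hL x c

theorem pair_prod (hL : ∀ x c, Lp rels ncol letter hwf (col x c) =
      cond c (PresentedGroup.of x) (PresentedGroup.of x)⁻¹)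
    (hsec : ∀ y, y < ncol → col (letter y).1 (letter y).2 = y)
    (hybar : ∀ x c, ybar (col x c) = col x (!c)) {y : ℕ} (hy : y < ncol) :
    ([y, ybar y].map (Lp rels ncol letter hwf)).prod = 1 := by
  have h := hsec y hy
  rw [← h, hybar]
  simp only [List.map_cons, List.map_nil, List.prod_cons, List.prod_nil, mul_one]
  rw [hL, hL]
  cases (letter y).2 <;> simp

theorem inv_prod (hL : ∀ x c, Lp rels ncol letter hwf (col x c) =
      cond c (PresentedGroup.of x) (PresentedGroup.of x)⁻¹)
    (hsec : ∀ y, y < ncol → col (letter y).1 (letter y).2 = y)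
    (hybar : ∀ x c, ybar (col x c) = col x (!c)) {w : List ℕ} (hw : ∀ y ∈ w, y < ncol)
    (h : (w.map (Lp rels ncol letter hwf)).prod = 1) :
    ((invW ybar w).map (Lp rels ncol letter hwf)).prod = 1 := by
  have key : ∀ y, y < ncol → Lp rels ncol letter hwf (ybar y) = (Lp rels ncol letter hwf y)⁻¹ := by
    intro y hy
    have h1 := pair_prod (hwf := hwf) hL hsec hybar hy
    simp only [List.map_cons, List.map_nil, List.prod_cons, List.prod_nil, mul_one] at h1
    exact (inv_eq_of_mul_eq_one_right h1).symm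
  have h2 : (invW ybar w).map (Lp rels ncol letter hwf) =
      ((w.map (Lp rels ncol letter hwf)).map (fun a => a⁻¹)).reverse := by
    unfold invW
    rw [List.map_map, List.map_map, List.map_reverse]
    congr 1
    apply List.map_congr_left
    intro y hy
    exact key y (hw y hy)
  rw [h2, ← List.prod_inv_reverse, h, inv_one]

/-- Base relators. -/
def mkBase (ncol : ℕ) (ybar : ℕ → ℕ) (relW psW : List (List ℕ)) : List (List ℕ) :=
  (List.range ncol).map (fun y => [y, ybar y]) ++ relW ++ relW.map (invW ybar) ++ psW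

theorem mkBase_prod (hL : ∀ x c, Lp rels ncol letter hwf (col x c) =
      cond c (PresentedGroup.of x) (PresentedGroup.of x)⁻¹)
    (hsec : ∀ y, y < ncol → col (letter y).1 (letter y).2 = y)
    (hybar : ∀ x c, ybar (col x c) = col x (!c))
    (hcol : ∀ x c, col x c < ncol)
    {relW psW : List (List ℕ)}
    (hrelW : ∀ w ∈ relW, ∃ r, r ∈ rels ∧ w = fw col r)
    (hpsW : ∀ w ∈ psW, ∃ j, w = (ncol + 2 * j + 1) :: fw col (hwf j)) :
    ∀ b ∈ mkBase ncol ybar relW psW, (b.map (Lp rels ncol letter hwf)).prod = 1 := by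
  have hrelprod : ∀ w ∈ relW, (w.map (Lp rels ncol letter hwf)).prod = 1 := by
    intro w hw
    obtain ⟨r, hr, rfl⟩ := hrelW w hw
    rw [fw_prod hL]
    exact PresentedGroup.one_of_mem hr
  intro b hb
  simp only [mkBase, List.mem_append, List.mem_map, List.mem_range] at hb
  rcases hb with ((⟨y, hy, rfl⟩ | hb) | ⟨w, hw, rfl⟩) | hb
  · exact pair_prod hL hsec hybar hy
  · exact hrelprod b hb
  · refine inv_prod hL hsec hybar ?_ (hrelprod w hw)
    obtain ⟨r, hr, rfl⟩ := hrelW w hw
    intro y hy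
    obtain ⟨p, _, rfl⟩ := List.mem_map.mp hy
    exact hcol _ _
  · obtain ⟨j, rfl⟩ := hpsW b hb
    rw [List.map_cons, List.prod_cons, fw_prod hL]
    have h1 : Lp rels ncol letter hwf (ncol + 2 * j + 1) = (PresentedGroup.mk rels (hwf j))⁻¹ := by
      unfold Lp
      rw [if_neg (by omega), if_neg (by omega)]
      have : (ncol + 2 * j + 1 - ncol) / 2 = j := by omega
      rw [this]
    rw [h1]
    simp

/-- A word is a rotation of a base relator. -/
def leafOK (baseW : List (List ℕ)) (w : List ℕ) : Bool :=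
  baseW.any (fun b => (List.range b.length).any (fun s => w == b.rotate s))

theorem leafOK_prod {G : Type*} [Group G] {L : ℕ → G} {baseW : List (List ℕ)}
    (hbase : ∀ b ∈ baseW, (b.map L).prod = 1) {w : List ℕ} (h : leafOK baseW w = true) :
    (w.map L).prod = 1 := by
  unfold leafOK at h
  simp only [List.any_eq_true, List.mem_range, beq_iff_eq] at h
  obtain ⟨b, hb, s, _, rfl⟩ := h
  exact prod_rotate_one L (hbase b hb) s

theorem coset_one_smul {G : Type*} [Group G] {K : Subgroup G} {k : G} (hk : k ∈ K) :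
    k • ((1 : G) : G ⧸ K) = ((1 : G) : G ⧸ K) := by
  have h1 : k • ((1 : G) : G ⧸ K) = ((k * 1 : G) : G ⧸ K) := rfl
  rw [h1, mul_one, QuotientGroup.eq]
  simpa using hk

/-- The upper bound for the index. -/
theorem index_upper {S : Set (FreeGroup α)}
    (hL : ∀ x c, Lp rels ncol letter hwf (col x c) =
      cond c (PresentedGroup.of x) (PresentedGroup.of x)⁻¹)
    (hcol : ∀ x c, col x c < ncol)
    (hletter : ∀ y, y < ncol → col (letter y).1 (letter y).2 = y)
    (hwfS : ∀ j, hwf j ∈ Subgroup.closure S)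
    {cell : ℕ → ℕ → ℕ} {eps stp defs : ℕ → ℕ} {wordT : BT (List ℕ)} {hlet : List ℕ}
    {baseW : List (List ℕ)} {M n : ℕ} {live : ℕ → ℕ} {T : ℕ → ℕ → ℕ}
    (hn : 0 < n)
    (hbase : ∀ b ∈ baseW, (b.map (Lp rels ncol letter hwf)).prod = 1)
    (hleaf : BT.all (leafOK baseW) wordT = true)
    (hletK : ∀ y ∈ hlet, Lp rels ncol letter hwf y ∈ (Subgroup.closure S).map (PresentedGroup.mk rels))
    (hstep : ∀ t, t < M → stepOK cell eps stp defs wordT.get ncol hlet t = true)
    (hcc : ∀ g y, consCell cell stp M g y = true)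
    (hce : ∀ g, consEps eps stp M g = true)
    (hlive : live 0 = 0)
    (hfin : ∀ i, i < n → ∀ y, y < ncol → T i y < n ∧ timeOf (cell (live i) y) < M ∧
      repC eps M 64 (cell (live i) y) = live (T i y)) :
    ((Subgroup.closure S).map (PresentedGroup.mk rels)).index ≤ n ∧
      ((Subgroup.closure S).map (PresentedGroup.mk rels)).index ≠ 0 := by
  set K := (Subgroup.closure S).map (PresentedGroup.mk rels) with hK
  set L := Lp rels ncol letter hwf with hLdef
  set q0 : PresentedGroup rels ⧸ K := ((1 : PresentedGroup rels) : PresentedGroup rels ⧸ K) with hq0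
  have hrel : ∀ a, IsRel (actG K L) (wordT.get a) := by
    intro a
    apply isRel_of_prod
    exact leafOK_prod hbase (BT.get_of_all _ _ hleaf a)
  have hH : ∀ x, x ∈ hlet → actG K L x q0 = q0 := by
    intro x hx
    exact coset_one_smul (inv_mem (hletK x hx))
  have hP : ∀ y, ¬ y < ncol → actG K L y q0 = q0 := by
    intro y hy
    apply coset_one_smul
    apply inv_mem
    have hmem : PresentedGroup.mk rels (hwf ((y - ncol) / 2)) ∈ K :=
      Subgroup.mem_map_of_mem _ (hwfS _)
    rw [hLdef]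
    unfold Lp
    rw [if_neg hy]
    split_ifs
    · exact hmem
    · exact inv_mem hmem
  have hF := all_facts (act := actG K L) (q0 := q0) (cell := cell) (eps := eps) (stp := stp) (defs := defs)
    (word := wordT.get) (ncol := ncol) (hlet := hlet) M (actG_inj K L) hrel hH hP hstep hcc hce
  set R : ℕ → PresentedGroup rels ⧸ K := fun i => Q (actG K L) q0 defs (live i) with hR
  have hR0 : R 0 = q0 := by
    show Q (actG K L) q0 defs (live 0) = q0
    rw [hlive, Q_zero]
  have hT : ∀ i, i < n → ∀ y, y < ncol → T i y < n ∧ actG K L y (R i) = R (T i y) := by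
    intro i hi y hy
    obtain ⟨h1, h2, h3⟩ := hfin i hi y hy
    exact ⟨h1, final_cell M hF hcc hce _ _ _ h2 h3⟩
  have hgen : Subgroup.closure (L '' {y | y < ncol}) = ⊤ := by
    rw [eq_top_iff, ← PresentedGroup.closure_range_of rels]
    apply Subgroup.closure_mono
    rintro _ ⟨x, rfl⟩
    refine ⟨col x true, hcol x true, ?_⟩
    show L (col x true) = _
    rw [hL]
    rfl
  have hinv : ∀ y, y < ncol → ∃ y', y' < ncol ∧ L y' = (L y)⁻¹ := by
    intro y hy
    refine ⟨col (letter y).1 (!(letter y).2), hcol _ _, ?_⟩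
    have h1 := hletter y hy
    show L _ = (L y)⁻¹
    conv_rhs => rw [← h1]
    rw [hL, hL]
    cases (letter y).2 <;> simp
  have hc := cover_of_table K L (n := n) (ncol := ncol) R T hn hR0 hT hgen hinv
  exact index_le_of_cover K R hc

/-- The relators of a Coxeter-type presentation as a list. -/
def relList {β : Type*} [DecidableEq β] (edges : List (β × ℕ × β)) (extra : List (FreeGroup β)) :
    List (FreeGroup β) :=
  (Cfsg.Spor.coxNodes edges).flatMap (fun x => (Cfsg.Spor.coxNodes edges).map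
    (fun y => (FreeGroup.of x * FreeGroup.of y) ^ Cfsg.Spor.coxLabel edges x y)) ++ extra

theorem mem_relList {β : Type*} [DecidableEq β] (edges : List (β × ℕ × β)) (extra : List (FreeGroup β))
    (r : FreeGroup β) : r ∈ relList edges extra ↔ r ∈ Cfsg.Spor.coxRelators edges ∪ {r | r ∈ extra} := by
  simp only [relList, List.mem_append, List.mem_flatMap, List.mem_map, Set.mem_union, Cfsg.Spor.coxRelators,
    Set.mem_ofPred_eq]
  constructor
  · rintro (⟨x, hx, y, hy, rfl⟩ | h)
    · exact Or.inl ⟨x, hx, y, hy, rfl⟩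
    · exact Or.inr h
  · rintro (⟨x, hx, y, hy, rfl⟩ | h)
    · exact Or.inl ⟨x, hx, y, hy, rfl⟩
    · exact Or.inr h

variable {T : ℕ → ℕ → ℕ} {n : ℕ}

/-- Relators act trivially on the table. -/
theorem hrel_of_check {relL : List (FreeGroup α)} (hrelL : ∀ r ∈ rels, r ∈ relL)
    {chkW : List (List ℕ)}
    (hcov : ∀ r ∈ relL, ∃ w ∈ chkW, ∃ s, wordOf col r.toWord = w.rotate s)
    (hlt : ∀ w ∈ chkW, ∀ y ∈ w, y < ncol)
    (hbd : ∀ y, y < ncol → ∀ i, i < n → T i y < n)
    (hsurj : ∀ y, y < ncol → ∀ j, j < n → ∃ i, i < n ∧ T i y = j)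
    (hall : ∀ w ∈ chkW, ∀ i, i < n → walk T i w = i) :
    ∀ r ∈ rels, ∀ i, i < n → walk T i (wordOf col r.toWord) = i := by
  intro r hr i hi
  obtain ⟨w, hw, s, hs⟩ := hcov r (hrelL r hr)
  rw [hs]
  exact walk_rotate (N := ncol) hbd hsurj (hlt w hw) (hall w hw) s i hi

end Main

section Final

variable {α : Type*} [DecidableEq α] {rels : Set (FreeGroup α)}
  {T : ℕ → ℕ → ℕ} {col : α → Bool → ℕ} {n : ℕ}

/-- Transitivity from a descent. -/
theorem rhoT_trans' [NeZero n] (hb : ∀ x c, ∀ i, i < n → T i (col x c) < n)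
    (hi : ∀ x c, ∀ i, i < n → T (T i (col x c)) (col x (!c)) = i)
    (hrel : ∀ r ∈ rels, ∀ i, i < n → walk T i (wordOf col r.toWord) = i)
    (hdesc : ∀ i (h0 : 0 < i) (hin : i < n), ∃ g, (rhoT hb hi hrel g ⟨i, hin⟩).1 < i) (i : Fin n) :
    ∃ g, rhoT hb hi hrel g 0 = i := by
  obtain ⟨i, hin⟩ := i
  induction i using Nat.strong_induction_on with
  | _ i IH =>
    by_cases hi0 : i = 0
    · subst hi0
      exact ⟨1, by simp⟩
    · obtain ⟨g, hg⟩ := hdesc i (by omega) hin
      obtain ⟨h, hh⟩ := IH _ hg (Fin.is_lt _)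
      refine ⟨g⁻¹ * h, ?_⟩
      rw [map_mul, Equiv.Perm.mul_apply]
      have : rhoT hb hi hrel h 0 = rhoT hb hi hrel g ⟨i, hin⟩ := by
        rw [hh]
      rw [this, map_inv]
      simp

theorem desc_of_letter (hb : ∀ x c, ∀ i, i < n → T i (col x c) < n)
    (hi : ∀ x c, ∀ i, i < n → T (T i (col x c)) (col x (!c)) = i)
    (hrel : ∀ r ∈ rels, ∀ i, i < n → walk T i (wordOf col r.toWord) = i)
    (x : α) (c : Bool) (i : ℕ) (hin : i < n) (h : T i (col x c) < i) :
    ∃ g, (rhoT hb hi hrel g ⟨i, hin⟩).1 < i := by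
  refine ⟨PresentedGroup.mk rels (cond c (FreeGroup.of x)⁻¹ (FreeGroup.of x)), ?_⟩
  rw [rhoT_mk]
  cases c
  · have : (FreeGroup.of x : FreeGroup α).toWord = [(x, true)] := FreeGroup.toWord_of x
    simp only [cond_false, this, wordOf, List.reverse_cons, List.reverse_nil, List.nil_append,
      List.map_cons, List.map_nil, walk_cons, walk_nil]
    exact h
  · have : ((FreeGroup.of x)⁻¹ : FreeGroup α).toWord = [(x, false)] := by
      rw [FreeGroup.toWord_inv, FreeGroup.toWord_of]
      rfl
    simp only [cond_true, this, wordOf, List.reverse_cons, List.reverse_nil, List.nil_append,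
      List.map_cons, List.map_nil, walk_cons, walk_nil]
    exact h

theorem desc_of_word (hb : ∀ x c, ∀ i, i < n → T i (col x c) < n)
    (hi : ∀ x c, ∀ i, i < n → T (T i (col x c)) (col x (!c)) = i)
    (hrel : ∀ r ∈ rels, ∀ i, i < n → walk T i (wordOf col r.toWord) = i)
    (s : FreeGroup α) (i : ℕ) (hin : i < n) (h : walk T i (wordOf col s.toWord) < i) :
    ∃ g, (rhoT hb hi hrel g ⟨i, hin⟩).1 < i :=
  ⟨PresentedGroup.mk rels s, by rw [rhoT_mk]; exact h⟩

/-- The index from both bounds. -/
theorem index_final [NeZero n] {S : Set (FreeGroup α)} (hb : ∀ x c, ∀ i, i < n → T i (col x c) < n)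
    (hi : ∀ x c, ∀ i, i < n → T (T i (col x c)) (col x (!c)) = i)
    (hrel : ∀ r ∈ rels, ∀ i, i < n → walk T i (wordOf col r.toWord) = i)
    (hS : ∀ s ∈ S, walk T 0 (wordOf col s.toWord) = 0)
    (hdesc : ∀ i (h0 : 0 < i) (hin : i < n), ∃ g, (rhoT hb hi hrel g ⟨i, hin⟩).1 < i)
    (hup : ((Subgroup.closure S).map (PresentedGroup.mk rels)).index ≤ n ∧
      ((Subgroup.closure S).map (PresentedGroup.mk rels)).index ≠ 0) :
    ((Subgroup.closure S).map (PresentedGroup.mk rels)).index = n :=
  index_eq_of_rep _ (rhoT hb hi hrel) (rhoT_fix hb hi hrel hS) (rhoT_trans' hb hi hrel hdesc) hup.1 hup.2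

/-- An interval as an orbit on the cosets. -/
theorem orbit_final [NeZero n] {S : Set (FreeGroup α)} (hb : ∀ x c, ∀ i, i < n → T i (col x c) < n)
    (hi : ∀ x c, ∀ i, i < n → T (T i (col x c)) (col x (!c)) = i)
    (hrel : ∀ r ∈ rels, ∀ i, i < n → walk T i (wordOf col r.toWord) = i)
    (hS : ∀ s ∈ S, walk T 0 (wordOf col s.toWord) = 0)
    (hdesc : ∀ i (h0 : 0 < i) (hin : i < n), ∃ g, (rhoT hb hi hrel g ⟨i, hin⟩).1 < i)
    (hidx : ((Subgroup.closure S).map (PresentedGroup.mk rels)).index = n)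
    (SW : List (List ℕ))
    (hSW : ∀ s ∈ S, wordOf col s.toWord ∈ SW ∧ wordOf col (s⁻¹).toWord ∈ SW)
    (hSW' : ∀ w ∈ SW, ∃ s ∈ S, w = wordOf col s.toWord ∨ w = wordOf col (s⁻¹).toWord)
    (lo hi' : ℕ) (hlo : lo < hi') (hhi : hi' ≤ n)
    (hcl : ∀ i, lo ≤ i → i < hi' → ∀ w ∈ SW, lo ≤ walk T i w ∧ walk T i w < hi')
    (hdesc2 : ∀ i, lo < i → i < hi' → ∃ w ∈ SW, walk T i w < i) :
    ∃ q : PresentedGroup rels ⧸ ((Subgroup.closure S).map (PresentedGroup.mk rels)),
      (MulAction.orbit ((Subgroup.closure S).map (PresentedGroup.mk rels)) q).ncard = hi' - lo ∧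
      ∀ q' ∈ MulAction.orbit ((Subgroup.closure S).map (PresentedGroup.mk rels)) q,
        lo ≤ (phi _ (rhoT hb hi hrel) q').1 ∧ (phi _ (rhoT hb hi hrel) q').1 < hi' := by
  set K := (Subgroup.closure S).map (PresentedGroup.mk rels) with hK
  have hfix := rhoT_fix (rels := rels) hb hi hrel hS
  have hbij := phi_bijective K (rhoT hb hi hrel) hfix (rhoT_trans' hb hi hrel hdesc) hidx
  let p : Fin n := ⟨lo, by omega⟩
  let O : Set (Fin n) := {i | lo ≤ i.1 ∧ i.1 < hi'}
  have hcl' := interval_orbit hb hi hrel SW hSW hSW' lo hi' hlo hhi hcl hdesc2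
  obtain ⟨q, hq, hcard⟩ := orbit_ncard K (rhoT hb hi hrel) hfix hbij O p ⟨le_rfl, hlo⟩
    (fun k hk i hi => hcl' k hk i hi.1 hi.2)
    (fun i hi' => interval_reach hb hi hrel SW hSW' lo _ hlo hhi hcl hdesc2 p rfl i hi'.1 hi'.2)
  refine ⟨q, ?_, ?_⟩
  · rw [hcard]
    have himg : (Fin.val '' O) = Set.Ico lo hi' := by
      ext a
      simp only [Set.mem_image, Set.mem_Ico, O, Set.mem_ofPred_eq]
      constructor
      · rintro ⟨i, hi1, rfl⟩
        exact hi1
      · intro ha
        exact ⟨⟨a, by omega⟩, ha, rfl⟩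
    rw [← Set.ncard_image_of_injective O Fin.val_injective, himg, ← Finset.coe_Ico, Set.ncard_coe_finset,
      Nat.card_Ico]
  · rintro q' ⟨k, rfl⟩
    have h1 : phi K (rhoT hb hi hrel) ((k : K) • q) = rhoT hb hi hrel (k : PresentedGroup rels) p := by
      rw [← hq]
      exact phi_smul K _ hfix (k : PresentedGroup rels) q
    rw [h1]
    exact hcl' _ k.2 p le_rfl hlo

end Final

end

end Cfsg.Agent.H07.Coset
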