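import Mathlib
import Cfsg.Agent.Lib.H07.Coset3

/-!
# Wrappers turning Boolean checks into theorems about presented groups
-/

set_option autoImplicit false

namespace Cfsg.Agent.H07.Coset

noncomputable section

/-- Range-guarded predicate for `allR` loops. -/
def guard (n : ℕ) (f : ℕ → Bool) (i : ℕ) : Bool := bif Nat.blt i n then f i else true

theorem guard_spec {n : ℕ} {f : ℕ → Bool} {d : ℕ} (hn : n ≤ 2 ^ d) (h : allR (guard n f) d 0 = true) :
    ∀ i, i < n → f i = true := by
  intro i hi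
  have h1 := allR_spec _ d 0 h i (Nat.zero_le _) (by omega)
  unfold guard at h1
  rw [blt_of_lt hi] at h1
  exact h1

/-- Combine results on chunks of a loop. -/
theorem guard_specM {n : ℕ} {f : ℕ → Bool} {d m : ℕ} (hn : n ≤ 2 ^ d * m)
    (h : ∀ j, j < m → allR (guard n f) d (j * 2 ^ d) = true) :
    ∀ i, i < n → f i = true := by
  intro i hi
  have hpos : 0 < 2 ^ d := by positivity
  have hj : i / 2 ^ d < m := by
    rw [Nat.div_lt_iff_lt_mul hpos]
    calc i < n := hi
      _ ≤ 2 ^ d * m := hn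
      _ = m * 2 ^ d := Nat.mul_comm _ _
  have h1 := allR_spec _ d _ (h _ hj) i (Nat.div_mul_le_self i _) (by
    have := Nat.lt_div_mul_add (a := i) hpos
    omega)
  unfold guard at h1
  rw [blt_of_lt hi] at h1
  exact h1

/-- Combine results on a segment of a loop. -/
theorem guard_spec' {n : ℕ} {f : ℕ → Bool} {d d' : ℕ} (hn : n ≤ 2 ^ d * 2 ^ d')
    (h : ∀ j, j < 2 ^ d' → allR (guard n f) d (j * 2 ^ d) = true) :
    ∀ i, i < n → f i = true := by
  intro i hi
  have hpos : 0 < 2 ^ d := by positivity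
  have hj : i / 2 ^ d < 2 ^ d' := by
    rw [Nat.div_lt_iff_lt_mul hpos]
    calc i < n := hi
      _ ≤ 2 ^ d * 2 ^ d' := hn
      _ = 2 ^ d' * 2 ^ d := Nat.mul_comm _ _
  have h1 := allR_spec _ d _ (h _ hj) i (Nat.div_mul_le_self i _) (by
    have := Nat.lt_div_mul_add (a := i) hpos
    omega)
  unfold guard at h1
  rw [blt_of_lt hi] at h1
  exact h1

section Inst

variable {α : Type*} [DecidableEq α] {rels : Set (FreeGroup α)}
  {col : α → Bool → ℕ} {ncol : ℕ} {letter : ℕ → α × Bool} {hwf : ℕ → FreeGroup α} {ybar : ℕ → ℕ}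
  {T : ℕ → ℕ → ℕ} {n : ℕ}

theorem hL_of (hlet1 : ∀ x, letter (col x true) = (x, true))
    (hlet2 : ∀ x, col x false = col x true ∨ letter (col x false) = (x, false))
    (hcol : ∀ x c, col x c < ncol)
    (hinvol : ∀ x, col x false = col x true →
      (PresentedGroup.of x : PresentedGroup rels) * PresentedGroup.of x = 1) (x : α) (c : Bool) :
    Lp rels ncol letter hwf (col x c) = cond c (PresentedGroup.of x) (PresentedGroup.of x)⁻¹ := by
  unfold Lp
  rw [if_pos (hcol x c)]
  cases c with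
  | true =>
    rw [hlet1]
  | false =>
    rcases hlet2 x with h | h
    · rw [h, hlet1]
      exact (inv_eq_of_mul_eq_one_right (hinvol x h)).symm
    · rw [h]

/-- In a Coxeter-type presentation the nodes are involutions. -/
theorem cox_invol {β : Type*} [DecidableEq β] {edges : List (β × ℕ × β)} {extra : List (FreeGroup β)}
    {x : β} (hx : x ∈ Cfsg.Spor.coxNodes edges) :
    (PresentedGroup.of x : PresentedGroup (Cfsg.Spor.coxRelators edges ∪ {r | r ∈ extra})) *
      PresentedGroup.of x = 1 := by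
  have h : (FreeGroup.of x * FreeGroup.of x) ∈ Cfsg.Spor.coxRelators edges ∪ {r | r ∈ extra} := by
    left
    refine ⟨x, hx, x, hx, ?_⟩
    simp [Cfsg.Spor.coxLabel]
  exact PresentedGroup.one_of_mem h

/-- Package of the facts on a table. -/
structure TabRep (rels : Set (FreeGroup α)) (T : ℕ → ℕ → ℕ) (col : α → Bool → ℕ) (n : ℕ) : Prop where
  hb : ∀ x c, ∀ i, i < n → T i (col x c) < n
  hi : ∀ x c, ∀ i, i < n → T (T i (col x c)) (col x (!c)) = i
  hrel : ∀ r ∈ rels, ∀ i, i < n → walk T i (wordOf col r.toWord) = i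

/-- The Boolean check of the relator words at a point. -/
def relOK (T : ℕ → ℕ → ℕ) (chkW : List (List ℕ)) (i : ℕ) : Bool :=
  chkW.all (fun w => Nat.beq (walkR T w i) i)

theorem TabRep.of_checks {relL : List (FreeGroup α)} {chkW : List (List ℕ)}
    (hrelL : ∀ r ∈ rels, r ∈ relL)
    (hcol : ∀ x c, col x c < ncol)
    (hletter : ∀ y, y < ncol → col (letter y).1 (letter y).2 = y)
    (hybar : ∀ x c, ybar (col x c) = col x (!c))
    (hbd : ∀ i, i < n → ∀ y, y < ncol → T i y < n)
    (hpairs : ∀ y, y < ncol → [y, ybar y] ∈ chkW)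
    (hlt : ∀ w ∈ chkW, ∀ y ∈ w, y < ncol)
    (hcov : ∀ r ∈ relL, ∃ w ∈ chkW, ∃ s, wordOf col r.toWord = w.rotate s)
    (hall : ∀ i, i < n → relOK T chkW i = true) :
    TabRep rels T col n := by
  have hw : ∀ w ∈ chkW, ∀ i, i < n → walk T i w = i := by
    intro w hw i hi
    have h1 := hall i hi
    unfold relOK at h1
    rw [List.all_eq_true] at h1
    have h2 := h1 w hw
    rw [walkR_eq] at h2
    exact Nat.eq_of_beq_eq_true h2
  have hii : ∀ x c, ∀ i, i < n → T (T i (col x c)) (col x (!c)) = i := by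
    intro x c i hi
    have h1 := hw _ (hpairs _ (hcol x c)) i hi
    rw [hybar] at h1
    exact h1
  have hsurj : ∀ y, y < ncol → ∀ j, j < n → ∃ i, i < n ∧ T i y = j := by
    intro y hy j hj
    have h1 := hletter y hy
    refine ⟨T j (col (letter y).1 (!(letter y).2)), hbd j hj _ (hcol _ _), ?_⟩
    have h2 := hii (letter y).1 (!(letter y).2) j hj
    rw [Bool.not_not, h1] at h2
    exact h2
  refine ⟨fun x c i hi => hbd i hi _ (hcol x c), hii, ?_⟩
  exact hrel_of_check hrelL hcov hlt (fun y hy i hi => hbd i hi y hy) hsurj hw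

/-- Transitivity check. -/
def descOK (T : ℕ → ℕ → ℕ) (ncol : ℕ) (SW : List (List ℕ)) (i : ℕ) : Bool :=
  bif Nat.beq i 0 then true else
    ((List.range ncol).any (fun y => Nat.blt (T i y) i) || SW.any (fun w => Nat.blt (walkR T w i) i))

theorem hdesc_of_checks [NeZero n] {S : Set (FreeGroup α)} (R : TabRep rels T col n) {SW : List (List ℕ)}
    (hletter : ∀ y, y < ncol → col (letter y).1 (letter y).2 = y)
    (hSW' : ∀ w ∈ SW, ∃ s ∈ S, w = wordOf col s.toWord ∨ w = wordOf col (s⁻¹).toWord)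
    (h : ∀ i, i < n → descOK T ncol SW i = true) :
    ∀ i (_ : 0 < i) (hin : i < n), ∃ g, (rhoT R.hb R.hi R.hrel g ⟨i, hin⟩).1 < i := by
  intro i h0 hin
  have h1 := h i hin
  unfold descOK at h1
  have hne : Nat.beq i 0 = false := by
    cases hb : Nat.beq i 0 with
    | false => rfl
    | true =>
      have := Nat.eq_of_beq_eq_true hb
      omega
  rw [hne] at h1
  simp only [cond_false, Bool.or_eq_true, List.any_eq_true, List.mem_range] at h1
  rcases h1 with ⟨y, hy, hb⟩ | ⟨w, hw, hb⟩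
  · have h2 := hletter y hy
    refine desc_of_letter R.hb R.hi R.hrel (letter y).1 (letter y).2 i hin ?_
    rw [h2]
    exact blt_lt hb
  · rw [walkR_eq] at hb
    obtain ⟨s, _, rfl | rfl⟩ := hSW' w hw
    · exact desc_of_word R.hb R.hi R.hrel s i hin (blt_lt hb)
    · exact desc_of_word R.hb R.hi R.hrel s⁻¹ i hin (blt_lt hb)

/-- Closure and descent of an interval. -/
def orbOK (T : ℕ → ℕ → ℕ) (SW : List (List ℕ)) (lo hi' i : ℕ) : Bool :=
  bif (Nat.ble lo i && Nat.blt i hi') then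
    (SW.all (fun w => Nat.ble lo (walkR T w i) && Nat.blt (walkR T w i) hi') &&
      (Nat.beq i lo || SW.any (fun w => Nat.blt (walkR T w i) i)))
  else true

theorem orbOK_cl {SW : List (List ℕ)} {lo hi' : ℕ} (h : ∀ i, i < n → orbOK T SW lo hi' i = true)
    (hhi : hi' ≤ n) : ∀ i, lo ≤ i → i < hi' → ∀ w ∈ SW, lo ≤ walk T i w ∧ walk T i w < hi' := by
  intro i h1 h2 w hw
  have h3 := h i (by omega)
  unfold orbOK at h3
  rw [Nat.ble_eq_true_of_le h1, blt_of_lt h2] at h3
  simp only [Bool.true_and, cond_true, Bool.and_eq_true, List.all_eq_true] at h3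
  have h4 := h3.1 w hw
  rw [walkR_eq] at h4
  exact ⟨Nat.le_of_ble_eq_true h4.1, blt_lt h4.2⟩

theorem orbOK_desc {SW : List (List ℕ)} {lo hi' : ℕ} (h : ∀ i, i < n → orbOK T SW lo hi' i = true)
    (hhi : hi' ≤ n) : ∀ i, lo < i → i < hi' → ∃ w ∈ SW, walk T i w < i := by
  intro i h1 h2
  have h3 := h i (by omega)
  unfold orbOK at h3
  rw [Nat.ble_eq_true_of_le (le_of_lt h1), blt_of_lt h2] at h3
  simp only [Bool.true_and, cond_true, Bool.and_eq_true, Bool.or_eq_true, List.any_eq_true] at h3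
  rcases h3.2 with h4 | ⟨w, hw, h4⟩
  · have := Nat.eq_of_beq_eq_true h4
    omega
  · rw [walkR_eq] at h4
    exact ⟨w, hw, blt_lt h4⟩

/-- The final-table check at a point. -/
def finOK (cell : ℕ → ℕ → ℕ) (eps : ℕ → ℕ) (live : ℕ → ℕ) (T : ℕ → ℕ → ℕ) (M n ncol i : ℕ) : Bool :=
  (List.range ncol).all (fun y => Nat.blt (T i y) n && Nat.blt (timeOf (cell (live i) y)) M &&
    Nat.beq (repC eps M 64 (cell (live i) y)) (live (T i y)))

theorem hfin_of {cell : ℕ → ℕ → ℕ} {eps : ℕ → ℕ} {live : ℕ → ℕ} {M : ℕ}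
    (h : ∀ i, i < n → finOK cell eps live T M n ncol i = true) :
    ∀ i, i < n → ∀ y, y < ncol → T i y < n ∧ timeOf (cell (live i) y) < M ∧
      repC eps M 64 (cell (live i) y) = live (T i y) := by
  intro i hi y hy
  have h1 := h i hi
  unfold finOK at h1
  rw [List.all_eq_true] at h1
  have h2 := h1 y (List.mem_range.mpr hy)
  simp only [Bool.and_eq_true] at h2
  exact ⟨blt_lt h2.1.1, blt_lt h2.1.2, Nat.eq_of_beq_eq_true h2.2⟩

/-- Word lists for a finite generating list of a subgroup. -/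
theorem hSW_of {S : Set (FreeGroup α)} {Sl : List (FreeGroup α)} {SW : List (List ℕ)}
    (hS : ∀ s ∈ S, s ∈ Sl)
    (h : Sl.all (fun s => SW.contains (wordOf col s.toWord) && SW.contains (wordOf col (s⁻¹).toWord)) = true) :
    ∀ s ∈ S, wordOf col s.toWord ∈ SW ∧ wordOf col (s⁻¹).toWord ∈ SW := by
  intro s hs
  rw [List.all_eq_true] at h
  have h1 := h s (hS s hs)
  simpa using h1

theorem hSW'_of {S : Set (FreeGroup α)} {Sl : List (FreeGroup α)} {SW : List (List ℕ)}
    (hS : ∀ s ∈ Sl, s ∈ S)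
    (h : SW.all (fun w => Sl.any (fun s => w == wordOf col s.toWord || w == wordOf col (s⁻¹).toWord)) = true) :
    ∀ w ∈ SW, ∃ s ∈ S, w = wordOf col s.toWord ∨ w = wordOf col (s⁻¹).toWord := by
  intro w hw
  rw [List.all_eq_true] at h
  have h1 := h w hw
  simp only [List.any_eq_true, Bool.or_eq_true, beq_iff_eq] at h1
  obtain ⟨s, hs, h2⟩ := h1
  exact ⟨s, hS s hs, h2⟩

end Inst

end

end Cfsg.Agent.H07.Coset
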