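import Mathlib
import Cfsg.Agent.Lib.H07.Coset4

/-!
# Simplicity and order of a finitely presented group from coset tables

Generic statements: the order bound along a chain of sub-presentations, the lower bound from a
stabiliser chain, and simplicity from primitivity arithmetic, a Sylow argument and a collapse.
-/

set_option autoImplicit false

namespace Cfsg.Agent.H07.SimpleT

open Cfsg.Agent.H07.Coset

/-! ### Counting along orbits -/

theorem card_mul_le_of_orbit {A X : Type*} [Group A] [MulAction A X] [Finite A]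
    (B C : Subgroup A) (hCB : C ≤ B) (p : X) (hfix : ∀ c ∈ C, c • p = p)
    (O : Finset X) (hO : ∀ q ∈ O, ∃ b ∈ B, b • p = q) :
    O.card * Nat.card C ≤ Nat.card B := by
  classical
  choose! b hb hbq using hO
  let f : (↥O × C) → B := fun x => ⟨b x.1.1 * x.2.1, B.mul_mem (hb _ x.1.2) (hCB x.2.2)⟩
  have hf : Function.Injective f := by
    rintro ⟨⟨q, hq⟩, ⟨c, hc⟩⟩ ⟨⟨q', hq'⟩, ⟨c', hc'⟩⟩ h
    have h1 : b q * c = b q' * c' := congrArg Subtype.val h
    have h2 : (b q * c) • p = q := by rw [mul_smul, hfix c hc, hbq q hq]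
    have h3 : (b q' * c') • p = q' := by rw [mul_smul, hfix c' hc', hbq q' hq']
    have h4 : q = q' := by rw [← h2, ← h3, h1]
    subst h4
    have h5 : c = c' := mul_left_cancel h1
    subst h5
    rfl
  have := Nat.card_le_card_of_injective f hf
  rw [Nat.card_prod] at this
  simpa using this

/-- A decreasing chain of subgroups with orbit data. -/
theorem chain_card {A : Type*} [Group A] [Finite A] (Gam : ℕ → Subgroup A) (sz : ℕ → ℕ) (L : ℕ)
    (h : ∀ i, i < L → sz i * Nat.card (Gam (i + 1)) ≤ Nat.card (Gam i)) :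
    (∏ i ∈ Finset.range L, sz i) * Nat.card (Gam L) ≤ Nat.card (Gam 0) := by
  induction L with
  | zero => simp
  | succ L ih =>
    rw [Finset.prod_range_succ]
    calc (∏ i ∈ Finset.range L, sz i) * sz L * Nat.card (Gam (L + 1))
        = (∏ i ∈ Finset.range L, sz i) * (sz L * Nat.card (Gam (L + 1))) := by ring
      _ ≤ (∏ i ∈ Finset.range L, sz i) * Nat.card (Gam L) :=
          Nat.mul_le_mul_left _ (h L (Nat.lt_succ_self L))
      _ ≤ Nat.card (Gam 0) := ih (fun i hi => h i (Nat.lt_succ_of_lt hi))

/-! ### Upper bounds -/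

/-- A hom from a group with a subgroup of finite index: the image has bounded order. -/
theorem card_range_le_of_index {P G : Type*} [Group P] [Group G] (f : P →* G) (K : Subgroup P) (n : ℕ)
    (hle : K.index ≤ n) (hne : K.index ≠ 0) (B : Subgroup G) [Finite B] (hB : ∀ k ∈ K, f k ∈ B) :
    Finite f.range ∧ Nat.card f.range ≤ n * Nat.card B := by
  classical
  -- Work with the surjection onto the range.
  let g : P →* f.range := f.rangeRestrict
  have hg : Function.Surjective g := f.rangeRestrict_surjective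
  let K' : Subgroup f.range := K.map g
  have hdvd : K'.index ∣ K.index := Subgroup.index_map_dvd K hg
  have hne' : K'.index ≠ 0 := fun h => hne (by
    rw [h] at hdvd
    exact Nat.eq_zero_of_zero_dvd hdvd)
  have hle' : K'.index ≤ n := le_trans (Nat.le_of_dvd (Nat.pos_of_ne_zero hne) hdvd) hle
  -- `K'` embeds into `B`
  let em : K' → B := fun x => ⟨x.1.1, by
    obtain ⟨k, hk, hx⟩ := x.2
    have : (x.1 : G) = f k := by
      rw [← hx]
      rfl
    rw [this]
    exact hB k hk⟩
  have hem : Function.Injective em := by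
    intro x y h
    apply Subtype.ext
    apply Subtype.ext
    exact congrArg (fun z : B => (z : G)) h
  have hK'fin : Finite K' := Finite.of_injective em hem
  have hfinQ : Finite (f.range ⧸ K') := Subgroup.index_ne_zero_iff_finite.mp hne'
  have hfin : Finite f.range := by
    have : Finite K' := hK'fin
    exact Finite.of_equiv _ (Subgroup.groupEquivQuotientProdSubgroup (s := K')).symm
  refine ⟨hfin, ?_⟩
  have hcard := Subgroup.index_mul_card K'
  rw [← hcard]
  exact Nat.mul_le_mul hle' (Nat.card_le_card_of_injective em hem)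

/-- The level bound in presented form. -/
theorem level_bound {β G : Type*} [Group G] {rels : Set (FreeGroup β)} (φ : β → G)
    (hφ : ∀ r ∈ rels, FreeGroup.lift φ r = 1)
    {S : Set (FreeGroup β)} {n : ℕ}
    (hup : ((Subgroup.closure S).map (PresentedGroup.mk rels)).index ≤ n ∧
      ((Subgroup.closure S).map (PresentedGroup.mk rels)).index ≠ 0)
    (B : Subgroup G) [Finite B] (hB : ∀ s ∈ S, FreeGroup.lift φ s ∈ B) :
    Finite (Subgroup.closure (Set.range φ)) ∧
      Nat.card (Subgroup.closure (Set.range φ)) ≤ n * Nat.card B := by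
  let f : PresentedGroup rels →* G := PresentedGroup.toGroup hφ
  have hr : f.range = Subgroup.closure (Set.range φ) := by
    rw [MonoidHom.range_eq_map, ← PresentedGroup.closure_range_of, MonoidHom.map_closure]
    congr 1
    ext y
    constructor
    · rintro ⟨_, ⟨x, rfl⟩, rfl⟩
      exact ⟨x, (PresentedGroup.toGroup.of hφ).symm⟩
    · rintro ⟨x, rfl⟩
      exact ⟨_, ⟨x, rfl⟩, PresentedGroup.toGroup.of hφ⟩
  have hf : ∀ w : FreeGroup β, f (PresentedGroup.mk rels w) = FreeGroup.lift φ w := fun w => rfl
  have hle : Subgroup.closure S ≤ B.comap (FreeGroup.lift φ) := by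
    rw [Subgroup.closure_le]
    exact fun s hs => hB s hs
  have h := card_range_le_of_index f ((Subgroup.closure S).map (PresentedGroup.mk rels)) n hup.1 hup.2 B (by
    rintro _ ⟨s, hs, rfl⟩
    rw [hf]
    exact hle hs)
  rw [hr] at h
  exact h

/-- Relators of a sub-presentation hold in the big group. -/
theorem lift_relators {β γ : Type*} [DecidableEq β] [DecidableEq γ] {edges : List (β × ℕ × β)}
    {extra : List (FreeGroup β)} {edgesG : List (γ × ℕ × γ)} {extraG : List (FreeGroup γ)} (ι : β → γ)
    (hnode : ∀ x ∈ Cfsg.Spor.coxNodes edges, ι x ∈ Cfsg.Spor.coxNodes edgesG)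
    (hlabel : ∀ x ∈ Cfsg.Spor.coxNodes edges, ∀ y ∈ Cfsg.Spor.coxNodes edges,
      Cfsg.Spor.coxLabel edges x y = Cfsg.Spor.coxLabel edgesG (ι x) (ι y))
    (hextra : ∀ r ∈ extra, FreeGroup.map ι r ∈ extraG) :
    ∀ r ∈ Cfsg.Spor.coxRelators edges ∪ {r | r ∈ extra},
      FreeGroup.lift (fun x => (PresentedGroup.of (ι x) :
        PresentedGroup (Cfsg.Spor.coxRelators edgesG ∪ {r | r ∈ extraG}))) r = 1 := by
  have key : ∀ w : FreeGroup β, FreeGroup.lift (fun x => (PresentedGroup.of (ι x) :
      PresentedGroup (Cfsg.Spor.coxRelators edgesG ∪ {r | r ∈ extraG}))) w =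
      PresentedGroup.mk _ (FreeGroup.map ι w) := by
    intro w
    have : FreeGroup.lift (fun x => (PresentedGroup.of (ι x) :
        PresentedGroup (Cfsg.Spor.coxRelators edgesG ∪ {r | r ∈ extraG}))) =
        (PresentedGroup.mk (Cfsg.Spor.coxRelators edgesG ∪ {r | r ∈ extraG})).comp (FreeGroup.map ι) := by
      ext x
      simp [PresentedGroup.of]
    rw [this]
    rfl
  rintro r (⟨x, hx, y, hy, rfl⟩ | hr)
  · rw [key]
    apply PresentedGroup.one_of_mem
    left
    refine ⟨ι x, hnode x hx, ι y, hnode y hy, ?_⟩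
    rw [← hlabel x hx y hy]
    simp
  · rw [key]
    apply PresentedGroup.one_of_mem
    right
    exact hextra r hr

/-- A collapse: if adding the relator `x` gives a trivial group then `mk x` normally generates. -/
theorem normal_top_of_collapse {β : Type*} {rels rels' : Set (FreeGroup β)} {x : FreeGroup β}
    (hrels : ∀ r ∈ rels', r ∈ rels ∨ r = x)
    (h1 : ((Subgroup.closure (∅ : Set (FreeGroup β))).map (PresentedGroup.mk rels')).index ≤ 1)
    (h2 : ((Subgroup.closure (∅ : Set (FreeGroup β))).map (PresentedGroup.mk rels')).index ≠ 0)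
    (N : Subgroup (PresentedGroup rels)) [N.Normal] (hx : PresentedGroup.mk rels x ∈ N) : N = ⊤ := by
  have hone : ((Subgroup.closure (∅ : Set (FreeGroup β))).map (PresentedGroup.mk rels')).index = 1 := by
    omega
  have htop := Subgroup.index_eq_one.mp hone
  have hbot : (Subgroup.closure (∅ : Set (FreeGroup β))).map (PresentedGroup.mk rels') = ⊥ := by
    rw [Subgroup.closure_empty]
    exact Subgroup.map_bot _
  rw [hbot] at htop
  have htriv : ∀ q : PresentedGroup rels', q = 1 := fun q => by
    have : q ∈ (⊥ : Subgroup (PresentedGroup rels')) := by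
      rw [htop]
      exact Subgroup.mem_top q
    simpa using this
  let φ : β → PresentedGroup rels ⧸ N := fun a => ((PresentedGroup.of a : PresentedGroup rels) : PresentedGroup rels ⧸ N)
  have hcomp : ∀ w : FreeGroup β, FreeGroup.lift φ w =
      ((PresentedGroup.mk rels w : PresentedGroup rels) : PresentedGroup rels ⧸ N) := by
    intro w
    have : FreeGroup.lift φ = (QuotientGroup.mk' N).comp (PresentedGroup.mk rels) := by
      ext a
      simp [φ, PresentedGroup.of]
    rw [this]
    rfl
  have hφ : ∀ r ∈ rels', FreeGroup.lift φ r = 1 := by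
    intro r hr
    rw [hcomp]
    rcases hrels r hr with h | rfl
    · rw [PresentedGroup.one_of_mem h]
      rfl
    · exact (QuotientGroup.eq_one_iff _).mpr hx
  rw [eq_top_iff]
  intro y _
  obtain ⟨w, rfl⟩ := PresentedGroup.mk_surjective rels y
  have h3 : FreeGroup.lift φ w = 1 := by
    have h4 : (PresentedGroup.toGroup hφ) (PresentedGroup.mk rels' w) = FreeGroup.lift φ w := rfl
    rw [← h4, htriv (PresentedGroup.mk rels' w), map_one]
  rw [hcomp] at h3
  exact (QuotientGroup.eq_one_iff _).mp h3

/-! ### Simplicity -/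

/-- Simplicity from a faithful transitive action with block arithmetic, one Sylow class and a
normal generator. -/
theorem simple_of_data {G : Type*} [Group G] [Finite G] [Nontrivial G] {n : ℕ} [NeZero n]
    (ρ : G →* Equiv.Perm (Fin n)) (hinj : Function.Injective ρ)
    (htrans : ∀ i : Fin n, ∃ g, ρ g 0 = i)
    (K : Subgroup G) (hK : ∀ k ∈ K, ρ k 0 = 0)
    (hblock : ∀ O : Finset (Fin n), 0 ∈ O → (∀ k ∈ K, ∀ i ∈ O, ρ k i ∈ O) → O.card ∣ n →
      O.card = 1 ∨ O.card = n)
    {p a : ℕ} (hp : p.Prime) (hpn : p ^ a ∣ n) (hpG : ¬ p ^ (a + 1) ∣ Nat.card G)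
    (x : G) (hx : x ^ p = 1)
    (hnc : ∀ N : Subgroup G, N.Normal → x ∈ N → N = ⊤) : IsSimpleGroup G := by
  classical
  haveI : Fact p.Prime := ⟨hp⟩
  refine ⟨?_⟩
  intro N hN
  by_cases hbot : N = ⊥
  · exact Or.inl hbot
  right
  apply hnc N hN
  letI : MulAction G (Fin n) := MulAction.compHom (Fin n) ρ
  have hsmul : ∀ (g : G) (i : Fin n), g • i = ρ g i := fun _ _ => rfl
  -- the orbit of the point `0`
  let O : Finset (Fin n) := Finset.univ.filter (fun i => ∃ m ∈ N, ρ m 0 = i)
  have hO0 : (0 : Fin n) ∈ O := by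
    simp only [O, Finset.mem_filter, Finset.mem_univ, true_and]
    exact ⟨1, N.one_mem, by simp⟩
  have hOinv : ∀ k ∈ K, ∀ i ∈ O, ρ k i ∈ O := by
    intro k hk i hi
    simp only [O, Finset.mem_filter, Finset.mem_univ, true_and] at hi ⊢
    obtain ⟨m, hm, rfl⟩ := hi
    refine ⟨k * m * k⁻¹, hN.conj_mem m hm k, ?_⟩
    have h1 : ρ k⁻¹ 0 = 0 := hK _ (K.inv_mem hk)
    rw [map_mul, map_mul, Equiv.Perm.mul_apply, Equiv.Perm.mul_apply, h1]
  -- the block property
  have hOset : (O : Set (Fin n)) = MulAction.orbit N (0 : Fin n) := by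
    ext i
    simp only [O, Finset.coe_filter, Finset.mem_univ, true_and, Set.mem_ofPred_eq, MulAction.mem_orbit_iff]
    constructor
    · rintro ⟨m, hm, rfl⟩
      exact ⟨⟨m, hm⟩, rfl⟩
    · rintro ⟨⟨m, hm⟩, rfl⟩
      exact ⟨m, hm, rfl⟩
  haveI : MulAction.IsPretransitive G (Fin n) := by
    refine ⟨fun i j => ?_⟩
    obtain ⟨g, hg⟩ := htrans i
    obtain ⟨h, hh⟩ := htrans j
    refine ⟨h * g⁻¹, ?_⟩
    rw [hsmul, map_mul, Equiv.Perm.mul_apply, ← hg, map_inv]
    simp [hh]
  have hblk : MulAction.IsBlock G (O : Set (Fin n)) := by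
    rw [hOset]
    exact MulAction.IsBlock.orbit_of_normal (0 : Fin n)
  have hdvd : (O : Set (Fin n)).ncard ∣ Nat.card (Fin n) :=
    hblk.ncard_dvd_card ⟨0, hO0⟩
  rw [Set.ncard_coe_finset, Nat.card_eq_fintype_card, Fintype.card_fin] at hdvd
  -- `N` is transitive
  have hOall : O = Finset.univ := by
    rcases hblock O hO0 hOinv hdvd with h1 | h1
    · exfalso
      apply hbot
      rw [eq_bot_iff]
      intro m hm
      have hfix0 : ∀ m' ∈ N, ρ m' 0 = 0 := by
        intro m' hm'
        have h2 : ρ m' 0 ∈ O := by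
          simp only [O, Finset.mem_filter, Finset.mem_univ, true_and]
          exact ⟨m', hm', rfl⟩
        rw [Finset.card_eq_one] at h1
        obtain ⟨c, hc⟩ := h1
        rw [hc] at h2 hO0
        rw [Finset.mem_singleton] at h2 hO0
        rw [h2, hO0]
      have h3 : ρ m = 1 := by
        ext i
        obtain ⟨g, rfl⟩ := htrans i
        have h4 := hfix0 (g⁻¹ * m * g) (by
          have := hN.conj_mem m hm g⁻¹
          simpa using this)
        rw [map_mul, map_mul, Equiv.Perm.mul_apply, Equiv.Perm.mul_apply, map_inv] at h4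
        have h5 : ρ m (ρ g 0) = ρ g 0 := by
          have h6 := congrArg (ρ g) h4
          simpa using h6
        simp [h5]
      have h7 : m = 1 := hinj (by rw [h3, map_one])
      simpa using h7
    · exact Finset.eq_univ_of_card _ (by simpa using h1)
  -- the order of `N` is divisible by `n`
  have hNn : n ∣ Nat.card N := by
    have h1 : MulAction.orbit N (0 : Fin n) = Set.univ := by
      rw [← hOset, hOall]
      simp
    have h2 := (MulAction.stabilizer N (0 : Fin n)).index_mul_card
    rw [MulAction.index_stabilizer, h1, Set.ncard_univ, Nat.card_eq_fintype_card, Fintype.card_fin] at h2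
    exact ⟨_, h2.symm⟩
  have hpN : p ^ a ∣ Nat.card N := dvd_trans hpn hNn
  have hNG : Nat.card N ∣ Nat.card G := Subgroup.card_subgroup_dvd_card N
  -- a Sylow subgroup of `G` in `N`
  have hcardpos : Nat.card G ≠ 0 := Nat.card_pos.ne'
  have hfac : (Nat.card G).factorization p = a := by
    have h1 : p ^ a ∣ Nat.card G := dvd_trans hpN hNG
    have h2 : a ≤ (Nat.card G).factorization p :=
      (hp.pow_dvd_iff_le_factorization hcardpos).mp h1
    have h3 : ¬ (a + 1 ≤ (Nat.card G).factorization p) := fun h =>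
      hpG ((hp.pow_dvd_iff_le_factorization hcardpos).mpr h)
    omega
  have hfacN : (Nat.card N).factorization p = a := by
    have hNpos : Nat.card N ≠ 0 := Nat.card_pos.ne'
    have h2 : a ≤ (Nat.card N).factorization p :=
      (hp.pow_dvd_iff_le_factorization hNpos).mp hpN
    have h3 : (Nat.card N).factorization p ≤ (Nat.card G).factorization p :=
      (Nat.factorization_le_iff_dvd hNpos hcardpos).mpr hNG p
    omega
  obtain ⟨P⟩ : Nonempty (Sylow p N) := inferInstance
  have hPcard : Nat.card P = p ^ a := by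
    rw [Sylow.card_eq_multiplicity, hfacN]
  let Q : Subgroup G := (P : Subgroup N).map N.subtype
  have hQle : Q ≤ N := by
    rintro _ ⟨y, _, rfl⟩
    exact y.2
  have hQcard : Nat.card Q = p ^ (Nat.card G).factorization p := by
    rw [hfac, ← hPcard]
    exact Nat.card_congr (Subgroup.equivMapOfInjective _ _ N.subtype_injective).toEquiv.symm
  let SQ : Sylow p G := Sylow.ofCard Q hQcard
  have hxp : IsPGroup p (Subgroup.zpowers x) := by
    rintro ⟨y, hy⟩
    obtain ⟨k, rfl⟩ := Subgroup.mem_zpowers_iff.mp hy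
    refine ⟨1, Subtype.ext ?_⟩
    simp only [pow_one, Subgroup.coe_pow, Subgroup.coe_one]
    rw [← zpow_natCast, ← zpow_mul, mul_comm, zpow_mul, zpow_natCast, hx, one_zpow]
  obtain ⟨S', hS'⟩ := hxp.exists_le_sylow
  obtain ⟨g, hg⟩ := MulAction.exists_smul_eq G SQ S'
  have hxS : x ∈ (S' : Subgroup G) := hS' (Subgroup.mem_zpowers x)
  rw [← hg] at hxS
  obtain ⟨y, hy, rfl⟩ := hxS
  have hyN : y ∈ N := hQle hy
  exact hN.conj_mem y hyN g

end Cfsg.Agent.H07.SimpleT
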