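import Mathlib
import Cfsg.Agent.Lib.H07.SimpleT

/-!
# The stabiliser chain of a coset table and block arithmetic on intervals
-/

set_option autoImplicit false

namespace Cfsg.Agent.H07.SimpleT

open Cfsg.Agent.H07.Coset

noncomputable section

/-! ### Block arithmetic -/

/-- All subset sums. -/
def ssums : List ℕ → List ℕ
  | [] => [0]
  | s :: l => ssums l ++ (ssums l).map (· + s)

/-- The intervals are contiguous from `lo` to `n`. -/
def ivOK (n : ℕ) : ℕ → List (ℕ × ℕ) → Bool
  | lo, [] => lo == n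
  | lo, iv :: l => iv.1 == lo && Nat.blt iv.1 iv.2 && ivOK n iv.2 l

theorem ivOK_le {n : ℕ} : ∀ (l : List (ℕ × ℕ)) (lo : ℕ), ivOK n lo l = true → lo ≤ n := by
  intro l
  induction l with
  | nil =>
    intro lo h
    have : lo = n := by simpa [ivOK] using h
    omega
  | cons iv l ih =>
    intro lo h
    simp only [ivOK, Bool.and_eq_true, beq_iff_eq] at h
    have h1 := ih _ h.2
    have h2 := blt_lt h.1.2
    omega

theorem card_filter_mem_ssums (P : ℕ → Prop) [DecidablePred P] (n : ℕ) :
    ∀ (l : List (ℕ × ℕ)) (lo : ℕ), ivOK n lo l = true →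
      (∀ iv ∈ l, ∀ i, iv.1 ≤ i → i < iv.2 → (P i ↔ P iv.1)) →
      ((Finset.Ico lo n).filter P).card ∈ ssums (l.map (fun iv => iv.2 - iv.1)) := by
  intro l
  induction l with
  | nil =>
    intro lo h _
    have : lo = n := by simpa [ivOK] using h
    subst this
    simp [ssums]
  | cons iv l ih =>
    intro lo h hc
    simp only [ivOK, Bool.and_eq_true, beq_iff_eq] at h
    obtain ⟨⟨h1, h2⟩, h3⟩ := h
    have h2' := blt_lt h2
    have hle := ivOK_le l _ h3
    have hIH := ih _ h3 (fun iv' hiv' => hc iv' (List.mem_cons_of_mem _ hiv'))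
    have hsplit : Finset.Ico lo n = Finset.Ico lo iv.2 ∪ Finset.Ico iv.2 n := by
      rw [Finset.Ico_union_Ico_eq_Ico] <;> omega
    have hdisj : Disjoint (Finset.Ico lo iv.2) (Finset.Ico iv.2 n) :=
      Finset.Ico_disjoint_Ico_consecutive _ _ _
    rw [hsplit, Finset.filter_union, Finset.card_union_of_disjoint
      (Finset.disjoint_filter_filter hdisj)]
    simp only [List.map_cons, ssums, List.mem_append, List.mem_map]
    by_cases hPa : P iv.1
    · right
      refine ⟨_, hIH, ?_⟩
      have : (Finset.Ico lo iv.2).filter P = Finset.Ico lo iv.2 := by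
        rw [Finset.filter_eq_self]
        intro i hi
        rw [Finset.mem_Ico] at hi
        exact (hc iv (List.mem_cons_self) i (by omega) hi.2).mpr hPa
      rw [this, Nat.card_Ico, h1]
      omega
    · left
      have : (Finset.Ico lo iv.2).filter P = ∅ := by
        rw [Finset.filter_eq_empty_iff]
        intro i hi hPi
        rw [Finset.mem_Ico] at hi
        exact hPa ((hc iv (List.mem_cons_self) i (by omega) hi.2).mp hPi)
      rw [this]
      simpa using hIH

/-- Block arithmetic for a stabiliser with orbits on intervals. -/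
theorem hblock_of_intervals {G : Type*} [Group G] {n : ℕ} [NeZero n]
    (ρ : G →* Equiv.Perm (Fin n)) (K : Subgroup G) (l : List (ℕ × ℕ))
    (hiv : ivOK n 1 l = true)
    (hsum : ∀ s ∈ ssums (l.map (fun iv => iv.2 - iv.1)), (1 + s) ∣ n → s = 0 ∨ 1 + s = n)
    (hreach : ∀ iv ∈ l, ∀ i : Fin n, iv.1 ≤ i.1 → i.1 < iv.2 →
      ∃ h : iv.1 < n, ∃ k ∈ K, ρ k ⟨iv.1, h⟩ = i) :
    ∀ O : Finset (Fin n), 0 ∈ O → (∀ k ∈ K, ∀ i ∈ O, ρ k i ∈ O) → O.card ∣ n →
      O.card = 1 ∨ O.card = n := by
  classical
  intro O h0 hinv hdvd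
  let P : ℕ → Prop := fun i => ∃ h : i < n, (⟨i, h⟩ : Fin n) ∈ O
  have hn0 : (0 : Fin n).1 = 0 := rfl
  have hconst : ∀ iv ∈ l, ∀ i, iv.1 ≤ i → i < iv.2 → (P i ↔ P iv.1) := by
    intro iv hiv' i h1 h2
    -- the last interval end is at most n
    have hi2n : iv.2 ≤ n := by
      have key : ∀ (l' : List (ℕ × ℕ)) (lo : ℕ), ivOK n lo l' = true → ∀ iv' ∈ l', iv'.2 ≤ n := by
        intro l'
        induction l' with
        | nil => intro lo _ iv' h; simp at h
        | cons a l' ih =>
          intro lo h iv' hiv'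
          simp only [ivOK, Bool.and_eq_true, beq_iff_eq] at h
          rcases List.mem_cons.mp hiv' with rfl | h3
          · exact ivOK_le l' _ h.2
          · exact ih _ h.2 iv' h3
      exact key l 1 hiv iv hiv'
    have hin : i < n := by omega
    obtain ⟨hlt, k, hk, hki⟩ := hreach iv hiv' ⟨i, hin⟩ h1 h2
    constructor
    · rintro ⟨_, hi⟩
      refine ⟨hlt, ?_⟩
      have := hinv k⁻¹ (K.inv_mem hk) _ hi
      have h5 : ρ k⁻¹ ⟨i, hin⟩ = ⟨iv.1, hlt⟩ := by
        rw [← hki, map_inv]
        simp
      rwa [h5] at this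
    · rintro ⟨_, hi⟩
      refine ⟨hin, ?_⟩
      have := hinv k hk _ hi
      rwa [hki] at this
  have hmem := card_filter_mem_ssums P n l 1 hiv hconst
  have hcard : O.card = 1 + ((Finset.Ico 1 n).filter P).card := by
    have himg : O.image Fin.val = insert 0 ((Finset.Ico 1 n).filter P) := by
      ext a
      simp only [Finset.mem_image, Finset.mem_insert, Finset.mem_filter, Finset.mem_Ico]
      constructor
      · rintro ⟨i, hi, rfl⟩
        by_cases hi0 : i.1 = 0
        · exact Or.inl hi0
        · exact Or.inr ⟨⟨by omega, i.2⟩, i.2, hi⟩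
      · rintro (rfl | ⟨_, hh, ha⟩)
        · exact ⟨0, h0, rfl⟩
        · exact ⟨_, ha, rfl⟩
    have h1 := Finset.card_image_of_injective O Fin.val_injective
    rw [← h1, himg, Finset.card_insert_of_notMem]
    · omega
    · simp
  rw [hcard] at hdvd
  rcases hsum _ hmem hdvd with h | h
  · left
    omega
  · right
    omega

section Tab

variable {α : Type*} [DecidableEq α] {rels : Set (FreeGroup α)} {T : ℕ → ℕ → ℕ}
  {col : α → Bool → ℕ} {n ncol : ℕ} {letter : ℕ → α × Bool}

/-- A letter of the table as a group element. -/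
def gL (rels : Set (FreeGroup α)) (letter : ℕ → α × Bool) (y : ℕ) : PresentedGroup rels :=
  PresentedGroup.mk rels (FreeGroup.mk [((letter y).1, !(letter y).2)])

/-- A word of the table as a group element. -/
def eltW (rels : Set (FreeGroup α)) (letter : ℕ → α × Bool) : List ℕ → PresentedGroup rels
  | [] => 1
  | y :: w => eltW rels letter w * gL rels letter y

theorem rho_gL (R : TabRep rels T col n)
    (hletter : ∀ y, y < ncol → col (letter y).1 (letter y).2 = y) (y : ℕ) (hy : y < ncol) (i : Fin n) :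
    ((rhoT R.hb R.hi R.hrel (gL rels letter y)) i).1 = T i.1 y := by
  unfold gL
  rw [rhoT_mk]
  have h1 : (FreeGroup.mk [((letter y).1, !(letter y).2)] : FreeGroup α).toWord =
      [((letter y).1, !(letter y).2)] := by
    rw [FreeGroup.toWord_mk]
    exact FreeGroup.reduce_singleton _
  rw [h1]
  simp [wordOf, walk, hletter y hy]

theorem rho_eltW (R : TabRep rels T col n)
    (hletter : ∀ y, y < ncol → col (letter y).1 (letter y).2 = y) (w : List ℕ) (hw : ∀ y ∈ w, y < ncol)
    (i : Fin n) : ((rhoT R.hb R.hi R.hrel (eltW rels letter w)) i).1 = walk T i.1 w := by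
  induction w generalizing i with
  | nil => simp [eltW, walk]
  | cons y w ih =>
    rw [eltW, map_mul, Equiv.Perm.mul_apply, ih (fun z hz => hw z (List.mem_cons_of_mem _ hz))]
    rw [rho_gL R hletter y (hw y List.mem_cons_self), walk_cons]

/-! ### The stabiliser chain -/

/-- Fields of an orbit entry: point, parent, generator, rank. -/
def sPt (e : ℕ) : ℕ := Nat.land e 1048575
def sPar (e : ℕ) : ℕ := Nat.land (Nat.shiftRight e 20) 1048575
def sGen (e : ℕ) : ℕ := Nat.land (Nat.shiftRight e 40) 1023
def sRk (e : ℕ) : ℕ := Nat.shiftRight e 50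

/-- The check of an entry of an orbit. -/
def lvlOK (T : ℕ → ℕ → ℕ) (word : ℕ → List ℕ) (lev : ℕ → ℕ) (E : ℕ → ℕ) (m J n i p k : ℕ) : Bool :=
  (bif Nat.blt (Nat.add k 1) m then Nat.blt (sPt (E k)) (sPt (E (Nat.add k 1))) else true) &&
  Nat.blt (sPt (E k)) n &&
  (bif Nat.beq (sRk (E k)) 0 then Nat.beq (sPt (E k)) p
   else Nat.blt (sPar (E k)) m && Nat.blt (sRk (E (sPar (E k)))) (sRk (E k)) &&
     Nat.ble i (lev (sGen (E k))) && Nat.blt (sGen (E k)) J &&
     Nat.beq (walkR T (word (sGen (E k))) (sPt (E (sPar (E k))))) (sPt (E k)))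

/-- The subgroups of the chain. -/
def Gam (R : TabRep rels T col n) (letter : ℕ → α × Bool) (word : ℕ → List ℕ) (lev : ℕ → ℕ) (J i : ℕ) :
    Subgroup (Equiv.Perm (Fin n)) :=
  Subgroup.closure ((fun j => rhoT R.hb R.hi R.hrel (eltW rels letter (word j))) '' {j | j < J ∧ i ≤ lev j})

theorem level_step (R : TabRep rels T col n)
    (hletter : ∀ y, y < ncol → col (letter y).1 (letter y).2 = y) (word : ℕ → List ℕ) (lev : ℕ → ℕ)
    (J i m p : ℕ) (E : ℕ → ℕ) (hp : p < n)
    (hw : ∀ j, j < J → ∀ y ∈ word j, y < ncol)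
    (hfix : ∀ j, j < J → i + 1 ≤ lev j → walk T p (word j) = p)
    (hlvl : ∀ k, k < m → lvlOK T word lev E m J n i p k = true) :
    m * Nat.card (Gam R letter word lev J (i + 1)) ≤ Nat.card (Gam R letter word lev J i) := by
  classical
  have hmono : ∀ k, k < m → (∀ k', k' < m → k' = k + 1 → sPt (E k) < sPt (E k')) := by
    intro k hk k' hk' he
    subst he
    have h1 := hlvl k hk
    unfold lvlOK at h1
    simp only [Bool.and_eq_true] at h1
    rw [show Nat.add k 1 = k + 1 from rfl, blt_of_lt hk'] at h1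
    exact blt_lt h1.1.1
  have hsm : ∀ a b, a < b → b < m → sPt (E a) < sPt (E b) := by
    intro a b hab
    induction b, hab using Nat.le_induction with
    | base => exact fun hb => hmono a (by omega) _ hb rfl
    | succ b hb ih =>
      intro hb'
      exact lt_trans (ih (by omega)) (hmono b (by omega) _ hb' rfl)
  have hlt : ∀ k, k < m → sPt (E k) < n := by
    intro k hk
    have h1 := hlvl k hk
    unfold lvlOK at h1
    simp only [Bool.and_eq_true] at h1
    exact blt_lt h1.1.2
  have hreach : ∀ r k (hk : k < m), sRk (E k) = r →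
      ∃ b ∈ Gam R letter word lev J i, ((b : Equiv.Perm (Fin n)) ⟨p, hp⟩).1 = sPt (E k) := by
    intro r
    induction r using Nat.strong_induction_on with
    | _ r IH =>
      intro k hk hr
      have h1 := hlvl k hk
      unfold lvlOK at h1
      simp only [Bool.and_eq_true] at h1
      have h2 := h1.2
      by_cases hr0 : sRk (E k) = 0
      · rw [hr0] at h2
        have h3 : sPt (E k) = p := Nat.eq_of_beq_eq_true h2
        exact ⟨1, one_mem _, by simp [h3]⟩
      · have hb : Nat.beq (sRk (E k)) 0 = false := by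
          cases hb : Nat.beq (sRk (E k)) 0 with
          | false => rfl
          | true => exact absurd (Nat.eq_of_beq_eq_true hb) hr0
        rw [hb] at h2
        simp only [cond_false, Bool.and_eq_true] at h2
        obtain ⟨⟨⟨⟨h3, h4⟩, h5⟩, h6⟩, h7⟩ := h2
        have h3' := blt_lt h3
        have h4' := blt_lt h4
        have h5' := Nat.le_of_ble_eq_true h5
        have h6' := blt_lt h6
        rw [walkR_eq] at h7
        have h7' := Nat.eq_of_beq_eq_true h7
        obtain ⟨b, hb1, hb2⟩ := IH _ (by omega) (sPar (E k)) h3' rfl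
        refine ⟨rhoT R.hb R.hi R.hrel (eltW rels letter (word (sGen (E k)))) * b,
          mul_mem (Subgroup.subset_closure ⟨_, ⟨h6', h5'⟩, rfl⟩) hb1, ?_⟩
        rw [Equiv.Perm.mul_apply, rho_eltW R hletter _ (hw _ h6'), hb2, h7']
  let f : Fin m → Fin n := fun k => ⟨sPt (E k.1), hlt k.1 k.2⟩
  have hf : Function.Injective f := by
    intro a b hab
    have h1 : sPt (E a.1) = sPt (E b.1) := congrArg Fin.val hab
    apply Fin.ext
    by_contra hne
    rcases Nat.lt_or_gt_of_ne hne with h2 | h2
    · have := hsm _ _ h2 b.2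
      omega
    · have := hsm _ _ h2 a.2
      omega
  let O : Finset (Fin n) := Finset.univ.image f
  have hO : O.card = m := by
    rw [Finset.card_image_of_injective _ hf]
    simp
  have hC : Gam R letter word lev J (i + 1) ≤ Gam R letter word lev J i := by
    apply Subgroup.closure_mono
    rintro _ ⟨j, ⟨h1, h2⟩, rfl⟩
    exact ⟨j, ⟨h1, by omega⟩, rfl⟩
  have hfixC : ∀ c ∈ Gam R letter word lev J (i + 1), c • (⟨p, hp⟩ : Fin n) = ⟨p, hp⟩ := by
    intro c hc
    have hle : Gam R letter word lev J (i + 1) ≤ MulAction.stabilizer (Equiv.Perm (Fin n)) (⟨p, hp⟩ : Fin n) := by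
      unfold Gam
      rw [Subgroup.closure_le]
      rintro _ ⟨j, ⟨h1, h2⟩, rfl⟩
      show _ • _ = _
      rw [Equiv.Perm.smul_def]
      apply Fin.ext
      rw [rho_eltW R hletter _ (hw _ h1)]
      exact hfix j h1 h2
    exact hle hc
  have := card_mul_le_of_orbit (Gam R letter word lev J i) (Gam R letter word lev J (i + 1)) hC
    (⟨p, hp⟩ : Fin n) hfixC O (by
      intro q hq
      obtain ⟨k, _, rfl⟩ := Finset.mem_image.mp hq
      obtain ⟨b, hb1, hb2⟩ := hreach _ k.1 k.2 rfl
      exact ⟨b, hb1, Fin.ext hb2⟩)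
  rwa [hO] at this

/-- The lower bound on the order of the image. -/
theorem sgs_lower [NeZero n] (R : TabRep rels T col n)
    (hletter : ∀ y, y < ncol → col (letter y).1 (letter y).2 = y) (word : ℕ → List ℕ) (lev : ℕ → ℕ)
    (J L : ℕ) (base sz : ℕ → ℕ) (E : ℕ → ℕ → ℕ)
    (htrans : ∀ i : Fin n, ∃ g, rhoT R.hb R.hi R.hrel g 0 = i)
    (hw : ∀ j, j < J → ∀ y ∈ word j, y < ncol)
    (h0 : ∀ j, j < J → walk T 0 (word j) = 0)
    (hbase : ∀ i, i < L → base i < n)
    (hfix : ∀ i, i < L → ∀ j, j < J → i + 1 ≤ lev j → walk T (base i) (word j) = base i)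
    (hlvl : ∀ i, i < L → ∀ k, k < sz i → lvlOK T word lev (E i) (sz i) J n i (base i) k = true) :
    n * ∏ i ∈ Finset.range L, sz i ≤ Nat.card (rhoT R.hb R.hi R.hrel).range := by
  have h1 := chain_card (Gam R letter word lev J) sz L (fun i hi =>
    level_step R hletter word lev J i (sz i) (base i) (E i) (hbase i hi) hw (hfix i hi) (hlvl i hi))
  have hpos : 0 < Nat.card (Gam R letter word lev J L) := Nat.card_pos
  have h2 : ∏ i ∈ Finset.range L, sz i ≤ Nat.card (Gam R letter word lev J 0) :=
    le_trans (Nat.le_mul_of_pos_right _ hpos) h1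
  have hC : Gam R letter word lev J 0 ≤ (rhoT R.hb R.hi R.hrel).range := by
    unfold Gam
    rw [Subgroup.closure_le]
    rintro _ ⟨j, _, rfl⟩
    exact ⟨_, rfl⟩
  have hfixC : ∀ c ∈ Gam R letter word lev J 0, c • (0 : Fin n) = 0 := by
    intro c hc
    have hle : Gam R letter word lev J 0 ≤ MulAction.stabilizer (Equiv.Perm (Fin n)) (0 : Fin n) := by
      unfold Gam
      rw [Subgroup.closure_le]
      rintro _ ⟨j, ⟨hj, _⟩, rfl⟩
      show _ • _ = _
      rw [Equiv.Perm.smul_def]
      apply Fin.ext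
      rw [rho_eltW R hletter _ (hw _ hj)]
      exact h0 j hj
    exact hle hc
  have h3 := card_mul_le_of_orbit (rhoT R.hb R.hi R.hrel).range (Gam R letter word lev J 0) hC
    (0 : Fin n) hfixC Finset.univ (by
      intro q _
      obtain ⟨g, hg⟩ := htrans q
      exact ⟨_, ⟨g, rfl⟩, hg⟩)
  simp only [Finset.card_univ, Fintype.card_fin] at h3
  exact le_trans (Nat.mul_le_mul_left _ h2) h3

/-- Iterating a word. -/
def powW (T : ℕ → ℕ → ℕ) (w : List ℕ) (p : ℕ) : ℕ → ℕ :=
  @Nat.rec (fun _ => ℕ → ℕ) (fun i => i) (fun _ ih i => ih (walkR T w i)) p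

/-- Order check for the word of a group element. -/
theorem pow_eq_one_of_check (R : TabRep rels T col n) (hinj : Function.Injective (rhoT R.hb R.hi R.hrel))
    (x : FreeGroup α) (w : List ℕ) (hw : w = wordOf col x.toWord) (p : ℕ)
    (h : ∀ i, i < n → Nat.beq (powW T w p i) i = true) :
    (PresentedGroup.mk rels x) ^ p = 1 := by
  apply hinj
  rw [map_pow, map_one]
  have hact : ∀ q (i : Fin n), (((rhoT R.hb R.hi R.hrel (PresentedGroup.mk rels x)) ^ q) i).1 = powW T w q i.1 := by
    intro q
    induction q with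
    | zero =>
      intro i
      rfl
    | succ q ih =>
      intro i
      rw [pow_succ, Equiv.Perm.mul_apply, ih]
      show _ = powW T w q (walkR T w i.1)
      rw [walkR_eq, hw, rhoT_mk]
  ext i
  rw [hact]
  exact Nat.eq_of_beq_eq_true (h i.1 i.2)

end Tab

/-! ### The final assembly -/

/-- The relators of the top level. -/
theorem lift_top {β : Type*} (rels : Set (FreeGroup β)) :
    ∀ r ∈ rels, FreeGroup.lift (fun x => (PresentedGroup.of x : PresentedGroup rels)) r = 1 := by
  intro r hr
  have : FreeGroup.lift (fun x => (PresentedGroup.of x : PresentedGroup rels)) = PresentedGroup.mk rels := by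
    ext x
    simp [PresentedGroup.of]
  rw [this]
  exact PresentedGroup.one_of_mem hr

/-- The top of the chain is everything. -/
theorem top_of_level {β : Type*} (rels : Set (FreeGroup β)) {M : ℕ}
    (h : Finite (Subgroup.closure (Set.range (fun x => (PresentedGroup.of x : PresentedGroup rels)))) ∧
      Nat.card (Subgroup.closure (Set.range (fun x => (PresentedGroup.of x : PresentedGroup rels)))) ≤ M) :
    Finite (PresentedGroup rels) ∧ Nat.card (PresentedGroup rels) ≤ M := by
  have hc : Subgroup.closure (Set.range (fun x => (PresentedGroup.of x : PresentedGroup rels))) = ⊤ :=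
    PresentedGroup.closure_range_of rels
  rw [hc] at h
  obtain ⟨h1, h2⟩ := h
  have e : (⊤ : Subgroup (PresentedGroup rels)) ≃ PresentedGroup rels := Subgroup.topEquiv.toEquiv
  exact ⟨Finite.of_equiv _ e, by rwa [← Nat.card_congr e]⟩

/-- Relators with one more word. -/
theorem rels_append {β : Type*} [DecidableEq β] (e : List (β × ℕ × β)) (ex : List (FreeGroup β))
    (x : FreeGroup β) : ∀ r ∈ Cfsg.Spor.coxRelators e ∪ {r | r ∈ ex ++ [x]},
      r ∈ Cfsg.Spor.coxRelators e ∪ {r | r ∈ ex} ∨ r = x := by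
  rintro r (h | h)
  · exact Or.inl (Or.inl h)
  · have h' : r ∈ ex ++ [x] := h
    rcases List.mem_append.mp h' with h1 | h1
    · exact Or.inl (Or.inr h1)
    · exact Or.inr (List.mem_singleton.mp h1)

/-- The representation is faithful and the order is known. -/
theorem card_and_inj {G : Type*} [Group G] [Finite G] {n : ℕ} (ρ : G →* Equiv.Perm (Fin n)) {N0 : ℕ}
    (hub : Nat.card G ≤ N0) (hlb : N0 ≤ Nat.card ρ.range) :
    Nat.card G = N0 ∧ Function.Injective ρ := by
  have hs : Function.Surjective ρ.rangeRestrict := ρ.rangeRestrict_surjective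
  have hle : Nat.card ρ.range ≤ Nat.card G := Nat.card_le_card_of_surjective _ hs
  have heq : Nat.card G = N0 := by omega
  refine ⟨heq, ?_⟩
  have hbij := hs.bijective_of_nat_card_le (by omega)
  intro a b hab
  exact hbij.1 (Subtype.ext hab)

end

end Cfsg.Agent.H07.SimpleT
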