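import Mathlib
import Cfsg.Agent.Lib.H07.Coset4

/-!
# Reading word identities off a certificate over the trivial subgroup
-/

set_option autoImplicit false

namespace Cfsg.Agent.H07.Coset

noncomputable section

variable {α : Type*} [DecidableEq α] {rels : Set (FreeGroup α)} {col : α → Bool → ℕ} {ncol : ℕ}
  {letter : ℕ → α × Bool} {hwf : ℕ → FreeGroup α}

/-- The table describes the action on the cosets. -/
theorem table_rep {S : Set (FreeGroup α)}
    (hwfS : ∀ j, hwf j ∈ Subgroup.closure S)
    {cell : ℕ → ℕ → ℕ} {eps stp defs : ℕ → ℕ} {wordT : BT (List ℕ)} {hlet : List ℕ}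
    {baseW : List (List ℕ)} {M n : ℕ} {live : ℕ → ℕ} {T : ℕ → ℕ → ℕ}
    (hbase : ∀ b ∈ baseW, (b.map (Lp rels ncol letter hwf)).prod = 1)
    (hleaf : BT.all (leafOK baseW) wordT = true)
    (hletK : ∀ y ∈ hlet, Lp rels ncol letter hwf y ∈ (Subgroup.closure S).map (PresentedGroup.mk rels))
    (hstep : ∀ t, t < M → stepOK cell eps stp defs wordT.get ncol hlet t = true)
    (hcc : ∀ g y, consCell cell stp M g y = true)
    (hce : ∀ g, consEps eps stp M g = true)
    (hlive : live 0 = 0)
    (hfin : ∀ i, i < n → ∀ y, y < ncol → T i y < n ∧ timeOf (cell (live i) y) < M ∧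
      repC eps M 64 (cell (live i) y) = live (T i y)) :
    ∃ R : ℕ → PresentedGroup rels ⧸ ((Subgroup.closure S).map (PresentedGroup.mk rels)),
      R 0 = ((1 : PresentedGroup rels) : PresentedGroup rels ⧸ ((Subgroup.closure S).map (PresentedGroup.mk rels))) ∧
      ∀ i, i < n → ∀ y, y < ncol → T i y < n ∧
        actG ((Subgroup.closure S).map (PresentedGroup.mk rels)) (Lp rels ncol letter hwf) y (R i) = R (T i y) := by
  set K := (Subgroup.closure S).map (PresentedGroup.mk rels) with hK
  set L := Lp rels ncol letter hwf with hLdef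
  set q0 : PresentedGroup rels ⧸ K := ((1 : PresentedGroup rels) : PresentedGroup rels ⧸ K) with hq0
  have hrel : ∀ a, IsRel (actG K L) (wordT.get a) := by
    intro a
    apply isRel_of_prod
    exact leafOK_prod hbase (BT.get_of_all _ _ hleaf a)
  have hH : ∀ x, x ∈ hlet → actG K L x q0 = q0 := by
    intro x hx
    exact coset_one_smul (inv_mem (hletK x hx))
  have hP : ∀ y, ¬ y < ncol → actG K L y q0 = q0 := by
    intro y hy
    apply coset_one_smul
    apply inv_mem
    have hmem : PresentedGroup.mk rels (hwf ((y - ncol) / 2)) ∈ K :=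
      Subgroup.mem_map_of_mem _ (hwfS _)
    rw [hLdef]
    unfold Lp
    rw [if_neg hy]
    split_ifs
    · exact hmem
    · exact inv_mem hmem
  have hF := all_facts (act := actG K L) (q0 := q0) (cell := cell) (eps := eps) (stp := stp) (defs := defs)
    (word := wordT.get) (ncol := ncol) (hlet := hlet) M (actG_inj K L) hrel hH hP hstep hcc hce
  refine ⟨fun i => Q (actG K L) q0 defs (live i), ?_, ?_⟩
  · show Q (actG K L) q0 defs (live 0) = q0
    rw [hlive, Q_zero]
  · intro i hi y hy
    obtain ⟨h1, h2, h3⟩ := hfin i hi y hy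
    exact ⟨h1, final_cell M hF hcc hce _ _ _ h2 h3⟩

/-- A word that closes at the base point of a table lies in the subgroup. -/
theorem mem_of_table {K : Subgroup (PresentedGroup rels)} {L : ℕ → PresentedGroup rels} {T : ℕ → ℕ → ℕ} {n : ℕ}
    {R : ℕ → PresentedGroup rels ⧸ K} (h0 : 0 < n)
    (hR : R 0 = ((1 : PresentedGroup rels) : PresentedGroup rels ⧸ K))
    (hT : ∀ i, i < n → ∀ y, y < ncol → T i y < n ∧ actG K L y (R i) = R (T i y))
    (w : List ℕ) (hw : ∀ y ∈ w, y < ncol) (hz : walk T 0 w = 0) : (w.map L).prod⁻¹ ∈ K := by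
  have key : ∀ (w : List ℕ) (i : ℕ), i < n → (∀ y ∈ w, y < ncol) →
      walk T i w < n ∧ w.foldl (fun q y => actG K L y q) (R i) = R (walk T i w) := by
    intro w
    induction w with
    | nil =>
      intro i hi _
      exact ⟨hi, rfl⟩
    | cons y w ih =>
      intro i hi hw
      obtain ⟨h1, h2⟩ := hT i hi y (hw y List.mem_cons_self)
      obtain ⟨h3, h4⟩ := ih _ h1 (fun z hz => hw z (List.mem_cons_of_mem _ hz))
      refine ⟨h3, ?_⟩
      rw [List.foldl_cons, h2]
      exact h4
  obtain ⟨_, h2⟩ := key w 0 h0 hw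
  rw [hz, foldl_actG, hR] at h2
  have h3 : (w.map L).prod⁻¹ • ((1 : PresentedGroup rels) : PresentedGroup rels ⧸ K) =
      (((w.map L).prod⁻¹ : PresentedGroup rels) : PresentedGroup rels ⧸ K) := by
    rw [MulAction.Quotient.smul_coe]
    simp
  rw [h3] at h2
  have := QuotientGroup.eq.mp h2
  simpa using this

end

end Cfsg.Agent.H07.Coset
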