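import Mathlib
import Cfsg.Agent.Lib.H07.SimpleT2
import Cfsg.Agent.Lib.H07.Coset5

/-!
# Further tools for sub-presentations: relations proved by enumeration
-/

set_option autoImplicit false

namespace Cfsg.Agent.H07.SimpleT

open Cfsg.Agent.H07.Coset

noncomputable section

/-- Word identities transfer along a map of presentations. -/
theorem mk_map_eq_one {β γ : Type*} {rels : Set (FreeGroup β)} {relsG : Set (FreeGroup γ)} (ι : β → γ)
    (hφ : ∀ r ∈ rels, FreeGroup.lift (fun x => (PresentedGroup.of (ι x) : PresentedGroup relsG)) r = 1)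
    (z : FreeGroup β) (hz : PresentedGroup.mk rels z = 1) :
    PresentedGroup.mk relsG (FreeGroup.map ι z) = 1 := by
  have key : FreeGroup.lift (fun x => (PresentedGroup.of (ι x) : PresentedGroup relsG)) z =
      PresentedGroup.mk relsG (FreeGroup.map ι z) := by
    have : FreeGroup.lift (fun x => (PresentedGroup.of (ι x) : PresentedGroup relsG)) =
        (PresentedGroup.mk relsG).comp (FreeGroup.map ι) := by
      ext x
      simp [PresentedGroup.of]
    rw [this]
    rfl
  rw [← key]
  have h4 : (PresentedGroup.toGroup hφ) (PresentedGroup.mk rels z) =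
      FreeGroup.lift (fun x => (PresentedGroup.of (ι x) : PresentedGroup relsG)) z := rfl
  rw [← h4, hz, map_one]

/-- Relators of a sub-presentation that hold in the big group, possibly by an earlier identity. -/
theorem lift_relators2 {β γ : Type*} [DecidableEq β] [DecidableEq γ] {edges : List (β × ℕ × β)}
    {extra : List (FreeGroup β)} {edgesG : List (γ × ℕ × γ)} {extraG : List (FreeGroup γ)} (ι : β → γ)
    (hnode : ∀ x ∈ Cfsg.Spor.coxNodes edges, ι x ∈ Cfsg.Spor.coxNodes edgesG)
    (hlabel : ∀ x ∈ Cfsg.Spor.coxNodes edges, ∀ y ∈ Cfsg.Spor.coxNodes edges,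
      Cfsg.Spor.coxLabel edges x y = Cfsg.Spor.coxLabel edgesG (ι x) (ι y))
    (hextra : ∀ r ∈ extra, PresentedGroup.mk (Cfsg.Spor.coxRelators edgesG ∪ {r | r ∈ extraG}) (FreeGroup.map ι r) = 1) :
    ∀ r ∈ Cfsg.Spor.coxRelators edges ∪ {r | r ∈ extra},
      FreeGroup.lift (fun x => (PresentedGroup.of (ι x) :
        PresentedGroup (Cfsg.Spor.coxRelators edgesG ∪ {r | r ∈ extraG}))) r = 1 := by
  have key : ∀ w : FreeGroup β, FreeGroup.lift (fun x => (PresentedGroup.of (ι x) :
      PresentedGroup (Cfsg.Spor.coxRelators edgesG ∪ {r | r ∈ extraG}))) w =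
      PresentedGroup.mk _ (FreeGroup.map ι w) := by
    intro w
    have : FreeGroup.lift (fun x => (PresentedGroup.of (ι x) :
        PresentedGroup (Cfsg.Spor.coxRelators edgesG ∪ {r | r ∈ extraG}))) =
        (PresentedGroup.mk (Cfsg.Spor.coxRelators edgesG ∪ {r | r ∈ extraG})).comp (FreeGroup.map ι) := by
      ext x
      simp [PresentedGroup.of]
    rw [this]
    rfl
  rintro r (⟨x, hx, y, hy, rfl⟩ | hr)
  · rw [key]
    apply PresentedGroup.one_of_mem
    left
    refine ⟨ι x, hnode x hx, ι y, hnode y hy, ?_⟩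
    rw [← hlabel x hx y hy]
    simp
  · rw [key]
    exact hextra r hr

/-- An identity from a certificate over the trivial subgroup. -/
theorem mk_eq_one_of_walk {α : Type*} [DecidableEq α] {rels : Set (FreeGroup α)} {col : α → Bool → ℕ} {ncol : ℕ}
    {letter : ℕ → α × Bool} {hwf : ℕ → FreeGroup α}
    (hL : ∀ x c, Lp rels ncol letter hwf (col x c) = cond c (PresentedGroup.of x) (PresentedGroup.of x)⁻¹)
    {S : Set (FreeGroup α)} (hS : S = ∅)
    (hwfS : ∀ j, hwf j ∈ Subgroup.closure S)
    {cell : ℕ → ℕ → ℕ} {eps stp defs : ℕ → ℕ} {wordT : BT (List ℕ)} {hlet : List ℕ}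
    {baseW : List (List ℕ)} {M n : ℕ} {live : ℕ → ℕ} {T : ℕ → ℕ → ℕ} (hn : 0 < n)
    (hbase : ∀ b ∈ baseW, (b.map (Lp rels ncol letter hwf)).prod = 1)
    (hleaf : BT.all (leafOK baseW) wordT = true)
    (hletK : ∀ y ∈ hlet, Lp rels ncol letter hwf y ∈ (Subgroup.closure S).map (PresentedGroup.mk rels))
    (hstep : ∀ t, t < M → stepOK cell eps stp defs wordT.get ncol hlet t = true)
    (hcc : ∀ g y, consCell cell stp M g y = true)
    (hce : ∀ g, consEps eps stp M g = true)
    (hlive : live 0 = 0)
    (hfin : ∀ i, i < n → ∀ y, y < ncol → T i y < n ∧ timeOf (cell (live i) y) < M ∧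
      repC eps M 64 (cell (live i) y) = live (T i y))
    (z : FreeGroup α) (hlt : ∀ y ∈ fw col z, y < ncol) (hw : walk T 0 (fw col z) = 0) :
    PresentedGroup.mk rels z = 1 := by
  obtain ⟨R, hR, hT⟩ := table_rep (rels := rels) (S := S) (ncol := ncol) (letter := letter) (hwf := hwf)
    hwfS hbase hleaf hletK hstep hcc hce hlive hfin
  have h1 := mem_of_table (rels := rels) hn hR hT (fw col z) hlt hw
  rw [fw_prod hL] at h1
  subst hS
  rw [Subgroup.closure_empty, Subgroup.map_bot] at h1
  simpa using h1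

/-! ### Tightness of the stabiliser chain -/

/-- If the product of the orbit sizes is the order, the base determines elements. -/
theorem chain_tight {A X : Type*} [Group A] [MulAction A X] [Finite A] (L : ℕ) :
    ∀ (Γ : ℕ → Subgroup A) (p : ℕ → X) (O : ℕ → Finset X),
    (∀ i, i < L → Γ (i + 1) ≤ Γ i) →
    (∀ i, i < L → ∀ c ∈ Γ (i + 1), c • p i = p i) →
    (∀ i, i < L → ∀ q ∈ O i, ∃ b ∈ Γ i, b • p i = q) →
    Nat.card (Γ 0) ≤ ∏ i ∈ Finset.range L, (O i).card →
    ∀ g ∈ Γ 0, (∀ i, i < L → g • p i = p i) → g = 1 := by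
  induction L with
  | zero =>
    intro Γ p O _ _ _ hcard g hg _
    have h1 : Nat.card (Γ 0) ≤ 1 := by simpa using hcard
    have hs : Subsingleton (Γ 0) := (Finite.card_le_one_iff_subsingleton).mp h1
    have : (⟨g, hg⟩ : Γ 0) = 1 := Subsingleton.elim _ _
    exact congrArg Subtype.val this
  | succ L ih =>
    intro Γ p O hle hfix hO hcard g hg hgfix
    -- the stabiliser of the first point
    let S : Subgroup A := Γ 0 ⊓ MulAction.stabilizer A (p 0)
    have hS1 : (O 0).card * Nat.card S ≤ Nat.card (Γ 0) :=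
      card_mul_le_of_orbit (Γ 0) S inf_le_left (p 0) (fun c hc => hc.2) (O 0) (hO 0 (by omega))
    have hprod : ∏ i ∈ Finset.range (L + 1), (O i).card =
        (O 0).card * ∏ i ∈ Finset.range L, (O (i + 1)).card := by
      rw [Finset.prod_range_succ', mul_comm]
    rw [hprod] at hcard
    have hpos : 0 < (O 0).card := by
      by_contra h
      have h0 : (O 0).card = 0 := by omega
      rw [h0, zero_mul] at hcard
      have := Nat.card_pos (α := Γ 0)
      omega
    have hS2 : Nat.card S ≤ ∏ i ∈ Finset.range L, (O (i + 1)).card :=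
      Nat.le_of_mul_le_mul_left (le_trans hS1 hcard) hpos
    have hle1 : Γ 1 ≤ S := le_inf (hle 0 (by omega)) (fun c hc => hfix 0 (by omega) c hc)
    -- lower bound on the next term
    have hlow : ∏ i ∈ Finset.range L, (O (i + 1)).card ≤ Nat.card (Γ 1) := by
      have h1 := chain_card (fun i => Γ (i + 1)) (fun i => (O (i + 1)).card) L (fun i hi => by
        have := card_mul_le_of_orbit (Γ (i + 1)) (Γ (i + 1 + 1)) (hle (i + 1) (by omega)) (p (i + 1))
          (hfix (i + 1) (by omega)) (O (i + 1)) (hO (i + 1) (by omega))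
        exact this)
      have hp : 0 < Nat.card (Γ (L + 1)) := Nat.card_pos
      exact le_trans (Nat.le_mul_of_pos_right _ hp) h1
    have hcard1 : Nat.card S ≤ Nat.card (Γ 1) := le_trans hS2 hlow
    have heq : Γ 1 = S := Subgroup.eq_of_le_of_card_ge hle1 hcard1
    have hg1 : g ∈ Γ 1 := by
      rw [heq]
      exact ⟨hg, hgfix 0 (by omega)⟩
    exact ih (fun i => Γ (i + 1)) (fun i => p (i + 1)) (fun i => O (i + 1))
      (fun i hi => hle (i + 1) (by omega)) (fun i hi => hfix (i + 1) (by omega))
      (fun i hi => hO (i + 1) (by omega)) (by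
        show Nat.card (Γ 1) ≤ _
        rw [heq]
        exact hS2) g hg1 (fun i hi => hgfix (i + 1) (by omega))

section Tab

variable {α : Type*} [DecidableEq α] {rels : Set (FreeGroup α)} {T : ℕ → ℕ → ℕ}
  {col : α → Bool → ℕ} {n ncol : ℕ} {letter : ℕ → α × Bool}

/-- The orbit of a level as a finite set. -/
theorem level_orbit (R : TabRep rels T col n)
    (hletter : ∀ y, y < ncol → col (letter y).1 (letter y).2 = y) (word : ℕ → List ℕ) (lev : ℕ → ℕ)
    (J i m p : ℕ) (E : ℕ → ℕ) (hp : p < n)
    (hw : ∀ j, j < J → ∀ y ∈ word j, y < ncol)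
    (hlvl : ∀ k, k < m → lvlOK T word lev E m J n i p k = true) :
    ∃ O : Finset (Fin n), O.card = m ∧ ∀ q ∈ O, ∃ b ∈ Gam R letter word lev J i,
      b • (⟨p, hp⟩ : Fin n) = q := by
  classical
  have hmono : ∀ k, k < m → (∀ k', k' < m → k' = k + 1 → sPt (E k) < sPt (E k')) := by
    intro k hk k' hk' he
    subst he
    have h1 := hlvl k hk
    unfold lvlOK at h1
    simp only [Bool.and_eq_true] at h1
    rw [show Nat.add k 1 = k + 1 from rfl, blt_of_lt hk'] at h1
    exact blt_lt h1.1.1
  have hsm : ∀ a b, a < b → b < m → sPt (E a) < sPt (E b) := by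
    intro a b hab
    induction b, hab using Nat.le_induction with
    | base => exact fun hb => hmono a (by omega) _ hb rfl
    | succ b hb ih =>
      intro hb'
      exact lt_trans (ih (by omega)) (hmono b (by omega) _ hb' rfl)
  have hlt : ∀ k, k < m → sPt (E k) < n := by
    intro k hk
    have h1 := hlvl k hk
    unfold lvlOK at h1
    simp only [Bool.and_eq_true] at h1
    exact blt_lt h1.1.2
  have hreach : ∀ r k (hk : k < m), sRk (E k) = r →
      ∃ b ∈ Gam R letter word lev J i, ((b : Equiv.Perm (Fin n)) ⟨p, hp⟩).1 = sPt (E k) := by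
    intro r
    induction r using Nat.strong_induction_on with
    | _ r IH =>
      intro k hk hr
      have h1 := hlvl k hk
      unfold lvlOK at h1
      simp only [Bool.and_eq_true] at h1
      have h2 := h1.2
      by_cases hr0 : sRk (E k) = 0
      · rw [hr0] at h2
        have h3 : sPt (E k) = p := Nat.eq_of_beq_eq_true h2
        exact ⟨1, one_mem _, by simp [h3]⟩
      · have hb : Nat.beq (sRk (E k)) 0 = false := by
          cases hb : Nat.beq (sRk (E k)) 0 with
          | false => rfl
          | true => exact absurd (Nat.eq_of_beq_eq_true hb) hr0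
        rw [hb] at h2
        simp only [cond_false, Bool.and_eq_true] at h2
        obtain ⟨⟨⟨⟨h3, h4⟩, h5⟩, h6⟩, h7⟩ := h2
        have h3' := blt_lt h3
        have h4' := blt_lt h4
        have h5' := Nat.le_of_ble_eq_true h5
        have h6' := blt_lt h6
        rw [walkR_eq] at h7
        have h7' := Nat.eq_of_beq_eq_true h7
        obtain ⟨b, hb1, hb2⟩ := IH _ (by omega) (sPar (E k)) h3' rfl
        refine ⟨rhoT R.hb R.hi R.hrel (eltW rels letter (word (sGen (E k)))) * b,
          mul_mem (Subgroup.subset_closure ⟨_, ⟨h6', h5'⟩, rfl⟩) hb1, ?_⟩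
        rw [Equiv.Perm.mul_apply, rho_eltW R hletter _ (hw _ h6'), hb2, h7']
  let f : Fin m → Fin n := fun k => ⟨sPt (E k.1), hlt k.1 k.2⟩
  have hf : Function.Injective f := by
    intro a b hab
    have h1 : sPt (E a.1) = sPt (E b.1) := congrArg Fin.val hab
    apply Fin.ext
    by_contra hne
    rcases Nat.lt_or_gt_of_ne hne with h2 | h2
    · have := hsm _ _ h2 b.2
      omega
    · have := hsm _ _ h2 a.2
      omega
  refine ⟨Finset.univ.image f, ?_, ?_⟩
  · rw [Finset.card_image_of_injective _ hf]
    simp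
  · intro q hq
    obtain ⟨k, _, rfl⟩ := Finset.mem_image.mp hq
    obtain ⟨b, hb1, hb2⟩ := hreach _ k.1 k.2 rfl
    exact ⟨b, hb1, Fin.ext hb2⟩

/-- With the exact order, the base determines elements of the image. -/
theorem sgs_tight [NeZero n] (R : TabRep rels T col n)
    (hletter : ∀ y, y < ncol → col (letter y).1 (letter y).2 = y) (word : ℕ → List ℕ) (lev : ℕ → ℕ)
    (J L : ℕ) (base sz : ℕ → ℕ) (E : ℕ → ℕ → ℕ)
    (htrans : ∀ i : Fin n, ∃ g, rhoT R.hb R.hi R.hrel g 0 = i)
    (hw : ∀ j, j < J → ∀ y ∈ word j, y < ncol)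
    (h0 : ∀ j, j < J → walk T 0 (word j) = 0)
    (hbase : ∀ i, i < L → base i < n)
    (hfix : ∀ i, i < L → ∀ j, j < J → i + 1 ≤ lev j → walk T (base i) (word j) = base i)
    (hlvl : ∀ i, i < L → ∀ k, k < sz i → lvlOK T word lev (E i) (sz i) J n i (base i) k = true)
    (hcard : Nat.card (rhoT R.hb R.hi R.hrel).range ≤ n * ∏ i ∈ Finset.range L, sz i)
    (g : Equiv.Perm (Fin n)) (hg : g ∈ (rhoT R.hb R.hi R.hrel).range) (hg0 : g 0 = 0)
    (hgb : ∀ i, (hi : i < L) → g ⟨base i, hbase i hi⟩ = ⟨base i, hbase i hi⟩) : g = 1 := by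
  classical
  let pt : ℕ → Fin n := fun i => if h : base i < n then ⟨base i, h⟩ else 0
  have hpt : ∀ i (hi : i < L), pt i = ⟨base i, hbase i hi⟩ := fun i hi => by
    simp only [pt, dif_pos (hbase i hi)]
  let O : ℕ → Finset (Fin n) := fun i =>
    if hi : i < L then Classical.choose (level_orbit R hletter word lev J i (sz i) (base i) (E i)
      (hbase i hi) hw (hlvl i hi)) else ∅
  have hO1 : ∀ i (hi : i < L), (O i).card = sz i := fun i hi => by
    simp only [O, dif_pos hi]
    exact (Classical.choose_spec (level_orbit R hletter word lev J i (sz i) (base i) (E i)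
      (hbase i hi) hw (hlvl i hi))).1
  have hO2 : ∀ i (hi : i < L), ∀ q ∈ O i, ∃ b ∈ Gam R letter word lev J i, b • pt i = q := fun i hi q hq => by
    simp only [O, dif_pos hi] at hq
    rw [hpt i hi]
    exact (Classical.choose_spec (level_orbit R hletter word lev J i (sz i) (base i) (E i)
      (hbase i hi) hw (hlvl i hi))).2 q hq
  let Γ' : ℕ → Subgroup (Equiv.Perm (Fin n)) := fun i =>
    Nat.casesOn i (rhoT R.hb R.hi R.hrel).range (fun i => Gam R letter word lev J i)
  let p' : ℕ → Fin n := fun i => Nat.casesOn i 0 (fun i => pt i)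
  let O' : ℕ → Finset (Fin n) := fun i => Nat.casesOn i Finset.univ (fun i => O i)
  have hmain := chain_tight (L + 1) Γ' p' O' (by
      intro i hi
      cases i with
      | zero =>
        show Gam R letter word lev J 0 ≤ (rhoT R.hb R.hi R.hrel).range
        unfold Gam
        rw [Subgroup.closure_le]
        rintro _ ⟨j, _, rfl⟩
        exact ⟨_, rfl⟩
      | succ i =>
        show Gam R letter word lev J (i + 1) ≤ Gam R letter word lev J i
        apply Subgroup.closure_mono
        rintro _ ⟨j, ⟨h1, h2⟩, rfl⟩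
        exact ⟨j, ⟨h1, by omega⟩, rfl⟩) (by
      intro i hi c hc
      cases i with
      | zero =>
        have hle : Gam R letter word lev J 0 ≤ MulAction.stabilizer (Equiv.Perm (Fin n)) (0 : Fin n) := by
          unfold Gam
          rw [Subgroup.closure_le]
          rintro _ ⟨j, ⟨hj, _⟩, rfl⟩
          show _ • _ = _
          rw [Equiv.Perm.smul_def]
          apply Fin.ext
          rw [rho_eltW R hletter _ (hw _ hj)]
          exact h0 j hj
        exact hle hc
      | succ i =>
        have hi' : i < L := by omega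
        have hle : Gam R letter word lev J (i + 1) ≤ MulAction.stabilizer (Equiv.Perm (Fin n)) (pt i) := by
          unfold Gam
          rw [Subgroup.closure_le]
          rintro _ ⟨j, ⟨h1, h2⟩, rfl⟩
          show _ • _ = _
          rw [Equiv.Perm.smul_def, hpt i hi']
          apply Fin.ext
          rw [rho_eltW R hletter _ (hw _ h1)]
          exact hfix i hi' j h1 h2
        exact hle hc) (by
      intro i hi q hq
      cases i with
      | zero =>
        obtain ⟨h, hh⟩ := htrans q
        exact ⟨_, ⟨h, rfl⟩, hh⟩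
      | succ i => exact hO2 i (by omega) q hq) (by
      show Nat.card (rhoT R.hb R.hi R.hrel).range ≤ _
      rw [Finset.prod_range_succ']
      have e : ∏ i ∈ Finset.range L, (O' (i + 1)).card = ∏ i ∈ Finset.range L, sz i :=
        Finset.prod_congr rfl (fun i hi => hO1 i (Finset.mem_range.mp hi))
      rw [e]
      have e2 : (O' 0).card = n := by
        show (Finset.univ : Finset (Fin n)).card = n
        simp
      rw [e2, mul_comm]
      exact hcard) g hg (by
      intro i hi
      cases i with
      | zero => exact hg0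
      | succ i =>
        show g • pt i = pt i
        rw [Equiv.Perm.smul_def, hpt i (by omega)]
        exact hgb i (by omega))
  exact hmain

/-- The order of a word from the base points only. -/
theorem pow_eq_one_of_base [NeZero n] (R : TabRep rels T col n)
    (hinj : Function.Injective (rhoT R.hb R.hi R.hrel))
    (hletter : ∀ y, y < ncol → col (letter y).1 (letter y).2 = y) (word : ℕ → List ℕ) (lev : ℕ → ℕ)
    (J L : ℕ) (base sz : ℕ → ℕ) (E : ℕ → ℕ → ℕ)
    (htrans : ∀ i : Fin n, ∃ g, rhoT R.hb R.hi R.hrel g 0 = i)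
    (hw : ∀ j, j < J → ∀ y ∈ word j, y < ncol)
    (h0 : ∀ j, j < J → walk T 0 (word j) = 0)
    (hbase : ∀ i, i < L → base i < n)
    (hfix : ∀ i, i < L → ∀ j, j < J → i + 1 ≤ lev j → walk T (base i) (word j) = base i)
    (hlvl : ∀ i, i < L → ∀ k, k < sz i → lvlOK T word lev (E i) (sz i) J n i (base i) k = true)
    (hcard : Nat.card (rhoT R.hb R.hi R.hrel).range ≤ n * ∏ i ∈ Finset.range L, sz i)
    (x : FreeGroup α) (w : List ℕ) (hx : w = wordOf col x.toWord) (p : ℕ)
    (h1 : Nat.beq (powW T w p 0) 0 = true)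
    (h2 : ∀ i, i < L → Nat.beq (powW T w p (base i)) (base i) = true) :
    (PresentedGroup.mk rels x) ^ p = 1 := by
  apply hinj
  rw [map_pow, map_one]
  have hact : ∀ q (i : Fin n), (((rhoT R.hb R.hi R.hrel (PresentedGroup.mk rels x)) ^ q) i).1 = powW T w q i.1 := by
    intro q
    induction q with
    | zero =>
      intro i
      rfl
    | succ q ih =>
      intro i
      rw [pow_succ, Equiv.Perm.mul_apply, ih]
      show _ = powW T w q (walkR T w i.1)
      rw [walkR_eq, hx, rhoT_mk]
  apply sgs_tight R hletter word lev J L base sz E htrans hw h0 hbase hfix hlvl hcard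
  · exact ⟨_, map_pow _ _ _⟩
  · apply Fin.ext
    rw [hact]
    exact Nat.eq_of_beq_eq_true h1
  · intro i hi
    apply Fin.ext
    rw [hact]
    exact Nat.eq_of_beq_eq_true (h2 i hi)

end Tab

end

end Cfsg.Agent.H07.SimpleT
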