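import Mathlib
import Cfsg.Prelude.Def_SporadicB

/-!
# Classes of 3-transpositions from a transitive table
-/

set_option autoImplicit false

namespace Cfsg.Agent.H07.TT3

noncomputable section

/-- Non-split double covers transport along isomorphisms of the cover. -/
theorem nonsplit_of_equiv {H H' K : Type*} [Group H] [Group H'] [Group K] [Finite H] (e : H ≃* H')
    (h : Cfsg.IsNonsplitDoubleCover H K) : Cfsg.IsNonsplitDoubleCover H' K := by
  obtain ⟨h1, ⟨f⟩, h3⟩ := h
  haveI : Finite H' := Finite.of_equiv H e.toEquiv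
  have hmap : (Subgroup.center H).map e.toMonoidHom = Subgroup.center H' := by
    ext x
    simp only [Subgroup.mem_map, Subgroup.mem_center_iff]
    constructor
    · rintro ⟨y, hy, rfl⟩ g
      obtain ⟨g0, rfl⟩ := e.surjective g
      show e g0 * e y = e y * e g0
      rw [← map_mul, ← map_mul, hy]
    · intro hx
      refine ⟨e.symm x, ?_, e.apply_symm_apply x⟩
      intro g
      apply e.injective
      rw [map_mul, map_mul, e.apply_symm_apply, hx]
  have hc1 : ∀ A : Subgroup H, Nat.card (A.map e.toMonoidHom) = Nat.card A := fun A =>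
    (Nat.card_congr (Subgroup.equivMapOfInjective A e.toMonoidHom e.injective).toEquiv).symm
  refine ⟨?_, ?_, ?_⟩
  · rw [← h1, ← hmap]
    exact hc1 _
  · have e2 : (H' ⧸ Subgroup.center H') ≃* (H ⧸ Subgroup.center H) :=
      (QuotientGroup.congr (Subgroup.center H) (Subgroup.center H') e hmap).symm
    exact ⟨e2.trans f⟩
  · intro L hL
    let L0 : Subgroup H := L.comap e.toMonoidHom
    have hL0 : L0.map e.toMonoidHom = L := Subgroup.map_comap_eq_self_of_surjective e.surjective L
    apply h3 L0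
    rw [Subgroup.isComplement'_iff_card_mul_and_disjoint] at hL ⊢
    obtain ⟨h4, h5⟩ := hL
    constructor
    · rw [← hmap, ← hL0, hc1, hc1] at h4
      rw [h4]
      exact (Nat.card_congr e.toEquiv).symm
    · rw [← hmap, ← hL0] at h5
      rw [Subgroup.disjoint_def] at h5 ⊢
      intro x hx hy
      have h6 := h5 (Subgroup.mem_map_of_mem e.toMonoidHom hx) (Subgroup.mem_map_of_mem e.toMonoidHom hy)
      exact e.injective (by rw [map_one]; exact h6)

/-- The centraliser of a conjugate. -/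
theorem centralizer_conj_equiv {G : Type*} [Group G] (g a : G) :
    Nonempty (Subgroup.centralizer ({a} : Set G) ≃* Subgroup.centralizer ({g * a * g⁻¹} : Set G)) := by
  have h : (Subgroup.centralizer ({a} : Set G)).map (MulAut.conj g).toMonoidHom =
      Subgroup.centralizer ({g * a * g⁻¹} : Set G) := by
    ext x
    simp only [Subgroup.mem_map, Subgroup.mem_centralizer_singleton_iff]
    constructor
    · rintro ⟨y, hy, rfl⟩
      show g * y * g⁻¹ * (g * a * g⁻¹) = g * a * g⁻¹ * (g * y * g⁻¹)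
      calc g * y * g⁻¹ * (g * a * g⁻¹) = g * (y * a) * g⁻¹ := by group
        _ = g * (a * y) * g⁻¹ := by rw [hy]
        _ = _ := by group
    · intro hx
      refine ⟨g⁻¹ * x * g, ?_, ?_⟩
      · calc g⁻¹ * x * g * a = g⁻¹ * (x * (g * a * g⁻¹)) * g := by group
          _ = g⁻¹ * (g * a * g⁻¹ * x) * g := by rw [hx]
          _ = _ := by group
      · show g * (g⁻¹ * x * g) * g⁻¹ = x
        group
  rw [← h]
  exact ⟨Subgroup.equivMapOfInjective _ _ (MulAut.conj g).injective⟩

section Main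

variable {G : Type*} [Group G] [Finite G] {n : ℕ} [NeZero n] (ρ : G →* Equiv.Perm (Fin n))
  (H : Subgroup G) (a : G)

/-- The stabiliser of the point is the subgroup. -/
theorem stab_eq (htrans : ∀ i : Fin n, ∃ g, ρ g 0 = i) (hfix : ∀ h ∈ H, ρ h 0 = 0) (hindex : H.index = n)
    (v : G) (hv : ρ v 0 = 0) : v ∈ H := by
  classical
  let f : G ⧸ H → Fin n := Quotient.lift (fun g => ρ g 0) (by
    intro x y hxy
    have h1 : x⁻¹ * y ∈ H := QuotientGroup.leftRel_apply.mp hxy
    have h2 := hfix _ h1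
    rw [map_mul, map_inv, Equiv.Perm.mul_apply] at h2
    have h3 : (ρ x) ((ρ x)⁻¹ (ρ y 0)) = ρ x 0 := by rw [h2]
    have h4 : (ρ x) ((ρ x)⁻¹ (ρ y 0)) = ρ y 0 := Equiv.apply_symm_apply _ _
    rw [← h3, h4])
  have hf : ∀ g : G, f (g : G ⧸ H) = ρ g 0 := fun g => rfl
  have hs : Function.Surjective f := by
    intro i
    obtain ⟨g, hg⟩ := htrans i
    exact ⟨(g : G ⧸ H), by rw [hf, hg]⟩
  have hcard : Nat.card (G ⧸ H) ≤ Nat.card (Fin n) := by
    rw [Nat.card_fin]
    exact le_of_eq hindex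
  have hb := hs.bijective_of_nat_card_le hcard
  have h1 : f (v : G ⧸ H) = f ((1 : G) : G ⧸ H) := by
    rw [hf, hf, hv, map_one]
    rfl
  have h2 := hb.1 h1
  have h3 : (1 : G)⁻¹ * v ∈ H := QuotientGroup.eq.mp h2.symm
  simpa using h3

variable (reps : List G)

/-- Factorisation of an element through the double cosets of the subgroup. -/
theorem factor (htrans : ∀ i : Fin n, ∃ g, ρ g 0 = i) (hfix : ∀ h ∈ H, ρ h 0 = 0) (hindex : H.index = n)
    (hcover : ∀ i : Fin n, i = 0 ∨ ∃ r ∈ reps, ∃ k ∈ H, ρ k (ρ r 0) = i) (u : G) :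
    u ∈ H ∨ ∃ r ∈ reps, ∃ k ∈ H, ∃ v ∈ H, u = k * r * v := by
  rcases hcover (ρ u 0) with h | ⟨r, hr, k, hk, h⟩
  · exact Or.inl (stab_eq ρ H htrans hfix hindex u h)
  · right
    refine ⟨r, hr, k, hk, r⁻¹ * k⁻¹ * u, ?_, by group⟩
    apply stab_eq ρ H htrans hfix hindex
    rw [map_mul, map_mul, map_inv, map_inv, Equiv.Perm.mul_apply, Equiv.Perm.mul_apply, ← h]
    have h1 : (ρ k)⁻¹ (ρ k (ρ r 0)) = ρ r 0 := Equiv.symm_apply_apply _ _
    have h2 : (ρ r)⁻¹ (ρ r 0) = 0 := Equiv.symm_apply_apply _ _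
    rw [h1, h2]

variable (hcomm : ∀ h ∈ H, h * a = a * h)
include hcomm

theorem conj_of_mem (h : G) (hh : h ∈ H) : h * a * h⁻¹ = a := by
  rw [hcomm h hh]
  group

/-- The centraliser of the element is the subgroup. -/
theorem centralizer_eq (htrans : ∀ i : Fin n, ∃ g, ρ g 0 = i) (hfix : ∀ h ∈ H, ρ h 0 = 0) (hindex : H.index = n)
    (hcover : ∀ i : Fin n, i = 0 ∨ ∃ r ∈ reps, ∃ k ∈ H, ρ k (ρ r 0) = i)
    (hne : ∀ r ∈ reps, a * (r * a * r⁻¹) ≠ 1) (ha2 : a * a = 1) :
    Subgroup.centralizer ({a} : Set G) = H := by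
  apply le_antisymm
  · intro g hg
    rw [Subgroup.mem_centralizer_singleton_iff] at hg
    rcases factor ρ H reps htrans hfix hindex hcover g with h | ⟨r, hr, k, hk, v, hv, rfl⟩
    · exact h
    · exfalso
      apply hne r hr
      have h1 : (k * r * v) * a * (k * r * v)⁻¹ = a := by
        rw [hg]
        group
      have h2 : (k * r * v) * a * (k * r * v)⁻¹ = k * (r * (v * a * v⁻¹) * r⁻¹) * k⁻¹ := by group
      rw [h2, conj_of_mem H a hcomm v hv] at h1
      have h3 : r * a * r⁻¹ = k⁻¹ * a * k := by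
        calc r * a * r⁻¹ = k⁻¹ * (k * (r * a * r⁻¹) * k⁻¹) * k := by group
          _ = _ := by rw [h1]
      have h4 : k⁻¹ * a * k = a := by
        have := conj_of_mem H a hcomm k⁻¹ (inv_mem hk)
        rwa [inv_inv] at this
      rw [h3, h4, ha2]
  · intro g hg
    rw [Subgroup.mem_centralizer_singleton_iff]
    exact hcomm g hg

/-- The size of the class. -/
theorem card_class (hC : Subgroup.centralizer ({a} : Set G) = H) (hindex : H.index = n) :
    Nat.card (conjugatesOf a) = n := by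
  classical
  let f : G ⧸ H → conjugatesOf a := Quotient.lift
    (fun g => (⟨g * a * g⁻¹, by
      show IsConj a _
      exact isConj_iff.mpr ⟨g, rfl⟩⟩ : conjugatesOf a)) (by
    intro x y hxy
    have h1 : x⁻¹ * y ∈ H := QuotientGroup.leftRel_apply.mp hxy
    have h2 := conj_of_mem H a hcomm _ h1
    apply Subtype.ext
    show x * a * x⁻¹ = y * a * y⁻¹
    calc x * a * x⁻¹ = x * ((x⁻¹ * y) * a * (x⁻¹ * y)⁻¹) * x⁻¹ := by rw [h2]
      _ = _ := by group)
  have hf : ∀ g : G, (f (g : G ⧸ H)).1 = g * a * g⁻¹ := fun g => rfl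
  have hs : Function.Surjective f := by
    rintro ⟨b, hb⟩
    obtain ⟨g, rfl⟩ := isConj_iff.mp (show IsConj a b from hb)
    exact ⟨(g : G ⧸ H), Subtype.ext (hf g)⟩
  have hi : Function.Injective f := by
    intro x y
    induction x using QuotientGroup.induction_on with
    | H x =>
    induction y using QuotientGroup.induction_on with
    | H y =>
    intro hxy
    have h1 : x * a * x⁻¹ = y * a * y⁻¹ := by
      have := congrArg Subtype.val hxy
      rwa [hf, hf] at this
    apply QuotientGroup.eq.mpr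
    rw [← hC, Subgroup.mem_centralizer_singleton_iff]
    calc x⁻¹ * y * a = x⁻¹ * (y * a * y⁻¹) * y := by group
      _ = x⁻¹ * (x * a * x⁻¹) * y := by rw [h1]
      _ = a * (x⁻¹ * y) := by group
  have := Nat.card_congr (Equiv.ofBijective f ⟨hi, hs⟩)
  rw [← this]
  exact hindex

/-- The 3-transposition property. -/
theorem three_set (htrans : ∀ i : Fin n, ∃ g, ρ g 0 = i) (hfix : ∀ h ∈ H, ρ h 0 = 0) (hindex : H.index = n)
    (hcover : ∀ i : Fin n, i = 0 ∨ ∃ r ∈ reps, ∃ k ∈ H, ρ k (ρ r 0) = i)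
    (hord : ∀ r ∈ reps, (a * (r * a * r⁻¹)) ^ 2 = 1 ∨ (a * (r * a * r⁻¹)) ^ 3 = 1) (ha2 : a * a = 1) (ha1 : a ≠ 1) :
    Cfsg.IsThreeTranspositionSet (conjugatesOf a) := by
  have hconj : ∀ (g x : G), (g * x * g⁻¹) ^ 2 = g * x ^ 2 * g⁻¹ ∧ (g * x * g⁻¹) ^ 3 = g * x ^ 3 * g⁻¹ := by
    intro g x
    constructor
    · exact conj_pow
    · exact conj_pow
  constructor
  · intro d hd
    obtain ⟨g, rfl⟩ := isConj_iff.mp (show IsConj a d from hd)
    have h1 : orderOf a = 2 := orderOf_eq_prime (by rw [pow_two]; exact ha2) ha1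
    have h2 : orderOf (g * a * g⁻¹) = orderOf a :=
      orderOf_injective (MulAut.conj g).toMonoidHom (MulAut.conj g).injective a
    rw [h2, h1]
  · intro d hd e he
    obtain ⟨g, rfl⟩ := isConj_iff.mp (show IsConj a d from hd)
    obtain ⟨g', rfl⟩ := isConj_iff.mp (show IsConj a e from he)
    have hprod : ∀ u : G, g * a * g⁻¹ * (g * u * a * (g * u)⁻¹) = g * (a * (u * a * u⁻¹)) * g⁻¹ := by
      intro u
      group
    have h1 : g' = g * (g⁻¹ * g') := by group
    rw [h1, hprod]
    rcases factor ρ H reps htrans hfix hindex hcover (g⁻¹ * g') with h | ⟨r, hr, k, hk, v, hv, h⟩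
    · rw [conj_of_mem H a hcomm _ h, ha2]
      left
      simp
    · have h2 : (g⁻¹ * g') * a * (g⁻¹ * g')⁻¹ = k * (r * a * r⁻¹) * k⁻¹ := by
        rw [h]
        have h3 : (k * r * v) * a * (k * r * v)⁻¹ = k * (r * (v * a * v⁻¹) * r⁻¹) * k⁻¹ := by group
        rw [h3, conj_of_mem H a hcomm v hv]
      rw [h2]
      have h4 : a * (k * (r * a * r⁻¹) * k⁻¹) = k * (a * (r * a * r⁻¹)) * k⁻¹ := by
        have h5 : k * a = a * k := hcomm k hk
        calc a * (k * (r * a * r⁻¹) * k⁻¹) = (a * k) * (r * a * r⁻¹) * k⁻¹ := by group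
          _ = (k * a) * (r * a * r⁻¹) * k⁻¹ := by rw [h5]
          _ = _ := by group
      rw [h4]
      rcases hord r hr with h6 | h6
      · left
        rw [(hconj _ _).1, (hconj _ _).1, h6]
        simp
      · right
        rw [(hconj _ _).2, (hconj _ _).2, h6]
        simp

omit [Finite G] [NeZero n] hcomm in
/-- The class generates a simple group. -/
theorem closure_class [IsSimpleGroup G] (ha1 : a ≠ 1) : Subgroup.closure (conjugatesOf a) = ⊤ := by
  have h1 : Subgroup.normalClosure ({a} : Set G) = Subgroup.closure (conjugatesOf a) := by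
    unfold Subgroup.normalClosure Group.conjugatesOfSet
    simp
  rw [← h1]
  rcases Subgroup.Normal.eq_bot_or_eq_top (inferInstance : (Subgroup.normalClosure ({a} : Set G)).Normal) with h | h
  · exfalso
    apply ha1
    have h2 : a ∈ Subgroup.normalClosure ({a} : Set G) := Subgroup.subset_normalClosure (by simp)
    rw [h] at h2
    exact h2
  · exact h

end Main

end

end Cfsg.Agent.H07.TT3
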