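import Mathlib
import Cfsg.Agent.Lib.H07.SimpleT2
import Cfsg.Agent.Lib.H07.TT3

/-!
# Classes of 3-transpositions from a coset table
-/

set_option autoImplicit false

namespace Cfsg.Agent.H07.TT3

open Cfsg.Agent.H07.Coset Cfsg.Agent.H07.SimpleT

noncomputable section

section Tab

variable {α : Type*} [DecidableEq α] {rels : Set (FreeGroup α)} {T : ℕ → ℕ → ℕ}
  {col : α → Bool → ℕ} {n ncol : ℕ} {letter : ℕ → α × Bool}

theorem eltW_append (u v : List ℕ) : eltW rels letter (u ++ v) = eltW rels letter v * eltW rels letter u := by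
  induction u with
  | nil => simp [eltW]
  | cons y u ih =>
    rw [List.cons_append, eltW, ih, eltW, mul_assoc]

variable (R : TabRep rels T col n)
  (hletter : ∀ y, y < ncol → col (letter y).1 (letter y).2 = y)
  (hinj : Function.Injective (rhoT R.hb R.hi R.hrel))
include hletter hinj

theorem eltW_eq_one (w : List ℕ) (hw : ∀ y ∈ w, y < ncol) (h : ∀ i, i < n → walk T i w = i) :
    eltW rels letter w = 1 := by
  apply hinj
  rw [map_one]
  ext i
  rw [rho_eltW R hletter w hw i]
  exact h i.1 i.2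

/-- The main theorem on the class of a central element of a point stabiliser. -/
theorem class_main [NeZero n] [Finite (PresentedGroup rels)] [IsSimpleGroup (PresentedGroup rels)]
    (htrans : ∀ i : Fin n, ∃ g, rhoT R.hb R.hi R.hrel g 0 = i)
    (S : Set (FreeGroup α)) (hSfix : ∀ s ∈ S, walk T 0 (wordOf col s.toWord) = 0)
    (hindex : ((Subgroup.closure S).map (PresentedGroup.mk rels)).index = n)
    (wz : List ℕ) (hwz : ∀ y ∈ wz, y < ncol)
    (hc : ∀ s ∈ S, ∀ i, i < n →
      walk T (walk T i wz) (wordOf col s.toWord) = walk T (walk T i (wordOf col s.toWord)) wz)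
    (hzz : ∀ i, i < n → walk T (walk T i wz) wz = i) (i0 : ℕ) (hi0 : i0 < n) (hz1 : walk T i0 wz ≠ i0)
    (ivs : List (ℕ × ℕ))
    (hreach : ∀ iv ∈ ivs, ∀ i : Fin n, iv.1 ≤ i.1 → i.1 < iv.2 →
      ∃ h : iv.1 < n, ∃ k ∈ (Subgroup.closure S).map (PresentedGroup.mk rels),
        rhoT R.hb R.hi R.hrel k ⟨iv.1, h⟩ = i)
    (hcov : ∀ i : Fin n, i.1 = 0 ∨ ∃ iv ∈ ivs, iv.1 ≤ i.1 ∧ i.1 < iv.2)
    (W : ℕ × ℕ → List ℕ × List ℕ)
    (hw1 : ∀ iv ∈ ivs, ∀ y ∈ (W iv).1, y < ncol) (hw1' : ∀ iv ∈ ivs, ∀ y ∈ (W iv).2, y < ncol)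
    (hw2 : ∀ iv ∈ ivs, walk T 0 (W iv).1 = iv.1)
    (hw3 : ∀ iv ∈ ivs, ∀ i, i < n → walk T (walk T i (W iv).1) (W iv).2 = i)
    (hw4 : ∀ iv ∈ ivs, (∀ i, i < n → walk T i (((W iv).2 ++ wz ++ (W iv).1 ++ wz) ++ ((W iv).2 ++ wz ++ (W iv).1 ++ wz)) = i) ∨
      (∀ i, i < n → walk T i (((W iv).2 ++ wz ++ (W iv).1 ++ wz) ++ ((W iv).2 ++ wz ++ (W iv).1 ++ wz) ++
        ((W iv).2 ++ wz ++ (W iv).1 ++ wz)) = i))
    (hw5 : ∀ iv ∈ ivs, ∃ i, i < n ∧ walk T i ((W iv).2 ++ wz ++ (W iv).1 ++ wz) ≠ i) :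
    Subgroup.centralizer ({eltW rels letter wz} : Set (PresentedGroup rels)) =
        (Subgroup.closure S).map (PresentedGroup.mk rels) ∧
      Nat.card (conjugatesOf (eltW rels letter wz)) = n ∧
      Cfsg.IsThreeTranspositionClass (conjugatesOf (eltW rels letter wz)) := by
  set ρ := rhoT R.hb R.hi R.hrel with hρ
  set H := (Subgroup.closure S).map (PresentedGroup.mk rels) with hH
  set a := eltW rels letter wz with ha
  have hfix : ∀ h ∈ H, ρ h 0 = 0 := rhoT_fix R.hb R.hi R.hrel hSfix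
  have hcomm : ∀ h ∈ H, h * a = a * h := by
    have hle : H ≤ Subgroup.centralizer ({a} : Set (PresentedGroup rels)) := by
      rw [hH, MonoidHom.map_closure, Subgroup.closure_le]
      rintro _ ⟨s, hs, rfl⟩
      show _ ∈ Subgroup.centralizer ({a} : Set (PresentedGroup rels))
      rw [Subgroup.mem_centralizer_singleton_iff]
      apply hinj
      ext i
      rw [map_mul, map_mul, Equiv.Perm.mul_apply, Equiv.Perm.mul_apply]
      have h1 : ∀ j : Fin n, (ρ a j).1 = walk T j.1 wz := fun j => rho_eltW R hletter wz hwz j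
      have h2 : ∀ j : Fin n, (ρ (PresentedGroup.mk rels s) j).1 = walk T j.1 (wordOf col s.toWord) :=
        fun j => rhoT_mk R.hb R.hi R.hrel s j
      rw [h2, h1, h1, h2]
      exact hc s hs i.1 i.2
    intro h hh
    exact Subgroup.mem_centralizer_singleton_iff.mp (hle hh)
  have ha2 : a * a = 1 := by
    have h1 : a * a = eltW rels letter (wz ++ wz) := (eltW_append _ _).symm
    rw [h1]
    refine eltW_eq_one R hletter hinj _ ?_ ?_
    · intro y hy
      rcases List.mem_append.mp hy with h | h <;> exact hwz y h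
    · intro i hi
      rw [walk_append]
      exact hzz i hi
  have ha1 : a ≠ 1 := by
    intro h
    apply hz1
    have h1 := rho_eltW R hletter wz hwz ⟨i0, hi0⟩
    rw [← ha, h, map_one] at h1
    exact h1.symm
  -- the representatives
  have hinvr : ∀ iv ∈ ivs, eltW rels letter (W iv).2 = (eltW rels letter (W iv).1)⁻¹ := by
    intro iv hiv
    rw [eq_inv_iff_mul_eq_one, ← eltW_append]
    refine eltW_eq_one R hletter hinj _ ?_ ?_
    · intro y hy
      rcases List.mem_append.mp hy with h | h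
      · exact hw1 iv hiv y h
      · exact hw1' iv hiv y h
    · intro i hi
      rw [walk_append]
      exact hw3 iv hiv i hi
  have hE : ∀ iv ∈ ivs, a * (eltW rels letter (W iv).1 * a * (eltW rels letter (W iv).1)⁻¹) =
      eltW rels letter ((W iv).2 ++ wz ++ (W iv).1 ++ wz) := by
    intro iv hiv
    rw [← hinvr iv hiv, eltW_append, eltW_append, eltW_append, ← ha]
    group
  have hltE : ∀ iv ∈ ivs, ∀ y ∈ ((W iv).2 ++ wz ++ (W iv).1 ++ wz), y < ncol := by
    intro iv hiv y hy
    simp only [List.mem_append] at hy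
    rcases hy with ((h | h) | h) | h
    · exact hw1' iv hiv y h
    · exact hwz y h
    · exact hw1 iv hiv y h
    · exact hwz y h
  let reps : List (PresentedGroup rels) := ivs.map (fun iv => eltW rels letter (W iv).1)
  have hcover : ∀ i : Fin n, i = 0 ∨ ∃ r ∈ reps, ∃ k ∈ H, ρ k (ρ r 0) = i := by
    intro i
    rcases hcov i with h | ⟨iv, hiv, h1, h2⟩
    · left
      exact Fin.ext h
    · right
      obtain ⟨h3, k, hk, hk2⟩ := hreach iv hiv i h1 h2
      refine ⟨eltW rels letter (W iv).1, List.mem_map.mpr ⟨iv, hiv, rfl⟩, k, hk, ?_⟩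
      have h4 : ρ (eltW rels letter (W iv).1) 0 = ⟨iv.1, h3⟩ := by
        apply Fin.ext
        rw [rho_eltW R hletter _ (hw1 iv hiv)]
        exact hw2 iv hiv
      rw [h4]
      exact hk2
  have hne : ∀ r ∈ reps, a * (r * a * r⁻¹) ≠ 1 := by
    intro r hr
    obtain ⟨iv, hiv, rfl⟩ := List.mem_map.mp hr
    rw [hE iv hiv]
    intro h
    obtain ⟨i, hi, h2⟩ := hw5 iv hiv
    apply h2
    have h3 := rho_eltW R hletter _ (hltE iv hiv) ⟨i, hi⟩
    rw [h, map_one] at h3
    exact h3.symm
  have hord : ∀ r ∈ reps, (a * (r * a * r⁻¹)) ^ 2 = 1 ∨ (a * (r * a * r⁻¹)) ^ 3 = 1 := by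
    intro r hr
    obtain ⟨iv, hiv, rfl⟩ := List.mem_map.mp hr
    rw [hE iv hiv]
    rcases hw4 iv hiv with h | h
    · left
      rw [pow_two, ← eltW_append]
      refine eltW_eq_one R hletter hinj _ ?_ h
      intro y hy
      rcases List.mem_append.mp hy with h | h <;> exact hltE iv hiv y h
    · right
      rw [pow_succ, pow_two, ← eltW_append, ← eltW_append]
      refine eltW_eq_one R hletter hinj _ ?_ ?_
      · intro y hy
        simp only [List.mem_append] at hy
        rcases hy with h | h | h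
        all_goals exact hltE iv hiv y (by simpa only [List.mem_append] using h)
      · intro i hi
        have := h i hi
        simpa only [List.append_assoc] using this
  have hC := centralizer_eq ρ H a reps hcomm htrans hfix hindex hcover hne ha2
  refine ⟨hC, card_class H a hcomm hC hindex, ?_, ⟨a, ?_, rfl⟩, closure_class a ha1⟩
  · exact three_set ρ H a reps hcomm htrans hfix hindex hcover hord ha2 ha1
  · exact IsConj.refl a

end Tab

end

end Cfsg.Agent.H07.TT3
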