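import Mathlib
import Cfsg.Agent.Lib.H07.TT3

/-!
# Centralisers over a conjugacy class
-/

set_option autoImplicit false

namespace Cfsg.Agent.H07.TT3

/-- A non-split double cover as the centraliser of one element of a class passes to the whole class. -/
theorem nonsplit_on_class {G K : Type*} [Group G] [Group K] [Finite G] (a : G) (H : Subgroup G)
    (hH : Subgroup.centralizer ({a} : Set G) = H) (hcov : Cfsg.IsNonsplitDoubleCover H K)
    (d : G) (hd : d ∈ conjugatesOf a) :
    Cfsg.IsNonsplitDoubleCover (Subgroup.centralizer ({d} : Set G)) K := by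
  subst hH
  obtain ⟨g, rfl⟩ := isConj_iff.mp (show IsConj a d from hd)
  obtain ⟨e⟩ := centralizer_conj_equiv g a
  exact nonsplit_of_equiv e hcov

end Cfsg.Agent.H07.TT3
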